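import Cfsg.Agent.P83.ED

set_option autoImplicit false
set_option maxRecDepth 1000000
set_option maxHeartbeats 0
set_option Elab.async false

namespace CF.P83

open CF.Comp

theorem e_k0_0 : allFrom (e_F (nat_lit 0)) (nat_lit 0) (nat_lit 546) = true := by decide +kernel
theorem e_k0_546 : allFrom (e_F (nat_lit 0)) (nat_lit 546) (nat_lit 26) = true := by decide +kernel
theorem e_k1_0 : allFrom (e_F (nat_lit 1)) (nat_lit 0) (nat_lit 240) = true := by decide +kernel
theorem e_k1_240 : allFrom (e_F (nat_lit 1)) (nat_lit 240) (nat_lit 249) = true := by decide +kernel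
theorem e_k1_489 : allFrom (e_F (nat_lit 1)) (nat_lit 489) (nat_lit 83) = true := by decide +kernel
theorem e_k2_0 : allFrom (e_F (nat_lit 2)) (nat_lit 0) (nat_lit 252) = true := by decide +kernel

end CF.P83
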