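import Cfsg.Agent.P83.ED

set_option autoImplicit false
set_option maxRecDepth 1000000
set_option maxHeartbeats 0
set_option Elab.async false

namespace CF.P83

open CF.Comp

theorem e_k2_252 : allFrom (e_F (nat_lit 2)) (nat_lit 252) (nat_lit 282) = true := by decide +kernel
theorem e_k2_534 : allFrom (e_F (nat_lit 2)) (nat_lit 534) (nat_lit 38) = true := by decide +kernel
theorem e_k3_0 : allFrom (e_F (nat_lit 3)) (nat_lit 0) (nat_lit 252) = true := by decide +kernel
theorem e_k3_252 : allFrom (e_F (nat_lit 3)) (nat_lit 252) (nat_lit 243) = true := by decide +kernel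
theorem e_k3_495 : allFrom (e_F (nat_lit 3)) (nat_lit 495) (nat_lit 77) = true := by decide +kernel
theorem e_k4_0 : allFrom (e_F (nat_lit 4)) (nat_lit 0) (nat_lit 281) = true := by decide +kernel

end CF.P83
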