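import Cfsg.Agent.P83.ED

set_option autoImplicit false
set_option maxRecDepth 1000000
set_option maxHeartbeats 0
set_option Elab.async false

namespace CF.P83

open CF.Comp

theorem e_k6_259 : allFrom (e_F (nat_lit 6)) (nat_lit 259) (nat_lit 301) = true := by decide +kernel
theorem e_k6_560 : allFrom (e_F (nat_lit 6)) (nat_lit 560) (nat_lit 12) = true := by decide +kernel
theorem e_k7_0 : allFrom (e_F (nat_lit 7)) (nat_lit 0) (nat_lit 243) = true := by decide +kernel
theorem e_k7_243 : allFrom (e_F (nat_lit 7)) (nat_lit 243) (nat_lit 254) = true := by decide +kernel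
theorem e_k7_497 : allFrom (e_F (nat_lit 7)) (nat_lit 497) (nat_lit 75) = true := by decide +kernel
theorem e_k8_0 : allFrom (e_F (nat_lit 8)) (nat_lit 0) (nat_lit 268) = true := by decide +kernel

end CF.P83
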