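import Cfsg.Agent.P83.ED

set_option autoImplicit false
set_option maxRecDepth 1000000
set_option maxHeartbeats 0
set_option Elab.async false

namespace CF.P83

open CF.Comp

theorem e_k8_268 : allFrom (e_F (nat_lit 8)) (nat_lit 268) (nat_lit 304) = true := by decide +kernel
theorem e_k9_0 : allFrom (e_F (nat_lit 9)) (nat_lit 0) (nat_lit 280) = true := by decide +kernel
theorem e_k9_280 : allFrom (e_F (nat_lit 9)) (nat_lit 280) (nat_lit 292) = true := by decide +kernel
theorem e_k10_0 : allFrom (e_F (nat_lit 10)) (nat_lit 0) (nat_lit 300) = true := by decide +kernel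
theorem e_k10_300 : allFrom (e_F (nat_lit 10)) (nat_lit 300) (nat_lit 272) = true := by decide +kernel

end CF.P83
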