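import Cfsg.Agent.Comp.Pres
import Cfsg.Agent.P83.Rels
import Cfsg.Agent.P83.EK0
import Cfsg.Agent.P83.EK1
import Cfsg.Agent.P83.EK2
import Cfsg.Agent.P83.EK3
import Cfsg.Agent.P83.EK4

set_option autoImplicit false
set_option maxRecDepth 1000000
set_option maxHeartbeats 0
set_option Elab.async false

namespace CF.P83

open CF.Comp

theorem e_all : Cov e_F 572 11 0 := by
  have h := Cov.zero e_F 572
  have h := h.blk (b := 546) e_k0_0 rfl
  have h := h.blk (b := 572) e_k0_546 rfl
  have h := h.next (y := 1) rfl rfl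
  have h := h.blk (b := 240) e_k1_0 rfl
  have h := h.blk (b := 489) e_k1_240 rfl
  have h := h.blk (b := 572) e_k1_489 rfl
  have h := h.next (y := 2) rfl rfl
  have h := h.blk (b := 252) e_k2_0 rfl
  have h := h.blk (b := 534) e_k2_252 rfl
  have h := h.blk (b := 572) e_k2_534 rfl
  have h := h.next (y := 3) rfl rfl
  have h := h.blk (b := 252) e_k3_0 rfl
  have h := h.blk (b := 495) e_k3_252 rfl
  have h := h.blk (b := 572) e_k3_495 rfl
  have h := h.next (y := 4) rfl rfl
  have h := h.blk (b := 281) e_k4_0 rfl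
  have h := h.blk (b := 572) e_k4_281 rfl
  have h := h.next (y := 5) rfl rfl
  have h := h.blk (b := 241) e_k5_0 rfl
  have h := h.blk (b := 492) e_k5_241 rfl
  have h := h.blk (b := 572) e_k5_492 rfl
  have h := h.next (y := 6) rfl rfl
  have h := h.blk (b := 259) e_k6_0 rfl
  have h := h.blk (b := 560) e_k6_259 rfl
  have h := h.blk (b := 572) e_k6_560 rfl
  have h := h.next (y := 7) rfl rfl
  have h := h.blk (b := 243) e_k7_0 rfl
  have h := h.blk (b := 497) e_k7_243 rfl
  have h := h.blk (b := 572) e_k7_497 rfl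
  have h := h.next (y := 8) rfl rfl
  have h := h.blk (b := 268) e_k8_0 rfl
  have h := h.blk (b := 572) e_k8_268 rfl
  have h := h.next (y := 9) rfl rfl
  have h := h.blk (b := 280) e_k9_0 rfl
  have h := h.blk (b := 572) e_k9_280 rfl
  have h := h.next (y := 10) rfl rfl
  have h := h.blk (b := 300) e_k10_0 rfl
  have h := h.blk (b := 572) e_k10_300 rfl
  have h := h.next (y := 11) rfl rfl
  exact h

theorem e : Enum RP (gensW 8) (gensW 9) 28431 :=
  ⟨e_cols, e_ch, e_L, e_H, e_pb.1, e_e.get, [(nat_lit 0), (nat_lit 1), (nat_lit 3), (nat_lit 5), (nat_lit 7), (nat_lit 9), (nat_lit 11), (nat_lit 13), (nat_lit 15), (nat_lit 17), (nat_lit 18)], (nat_lit 255), (nat_lit 9), e_rots, e_hcs,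
    (nat_lit 28432), (nat_lit 11), (nat_lit 65536), (nat_lit 2048), (nat_lit 134217728), (nat_lit 4194303), (nat_lit 8), (nat_lit 255), (nat_lit 37), (nat_lit 0x1fffffffff), (nat_lit 143), (nat_lit 572),
    fun _ _ => rfl, fun _ => rfl, fun _ _ => rfl, by decide +kernel, e_all.1⟩

end CF.P83
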