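import Cfsg.Agent.Comp.MatG
import Cfsg.Agent.P83.MD
import Cfsg.Agent.P83.Rels

set_option autoImplicit false
set_option maxRecDepth 1000000
set_option maxHeartbeats 0
set_option Elab.async false

namespace CF.P83

open CF.Comp

theorem linO_a : linAll (tabP 3) 1080 8 OV OA O0 OCs 9 = true := by decide +kernel
theorem linO : LinOK (tabP 3) 1080 8 9 OV OA O0 :=
  ⟨⟨Oσ, by decide +kernel⟩, by decide +kernel, by decide +kernel, rfl,
    OCs, by decide +kernel, rfl, linAll_iff.1 linO_a⟩
theorem chO : ChainGe O0 O1 1080 11 9 OW OC 4952179814400 :=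
  ⟨rfl, by decide, by decide, slp_of_slpOK (by decide +kernel), by decide +kernel, by decide +kernel,
    by decide +kernel⟩
theorem omO : allFrom (omAt (tabP 3) 8 OB OA OX) 0 9 = true := by decide +kernel
theorem relO : relsOK O0 1080 11 RP = true := by decide +kernel

end CF.P83
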