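import Cfsg.Agent.P83.E
import Cfsg.Agent.P83.MK
import Cfsg.Agent.LX4.O5
import Cfsg.Agent.Geom.Simple
import Cfsg.Agent.S0293

/-! Solutions of the relations generate the orthogonal group over the field with three elements. -/

set_option autoImplicit false
set_option maxRecDepth 1000000

namespace CF.P83
open Cfsg CF.Comp CF.LX4 Matrix

/-- the model -/
abbrev M3 : Type := POmega (ZMod 3) (quadFormPlus 4 (ZMod 3))

theorem card_M3 : Nat.card M3 = 4952179814400 := by
  have := Cfsg.Agent.S0293.result (F := ZMod 3) (q := 3) rfl 4 le_rfl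
  rw [show Nat.gcd 4 (3 ^ 4 - 1) = 4 by decide] at this
  refine Nat.eq_of_mul_eq_mul_left (by decide : 0 < 4) (this.trans ?_)
  decide +kernel

theorem simple_M3 : IsSimpleGroup M3 :=
  CF.Geom.isSimpleGroup_POmega (Q := CF.Geom.qPlus 4 (ZMod 3)) (CF.Geom.qPlus_nondegenerate 4) (by simp)

theorem bnd3 {G : Type*} [Group G] {f : ℕ → G} (hr : ∀ r ∈ RP, ev f r = 1) : Bound f (gensW 9) 4952179814400 :=
  e.bound hr (Om.bnd fun r h => hr r (List.mem_append_left _ h))

theorem hQ3 {M : Matrix _ _ (ZMod 3)} (h : M = fromBlocks 0 1 0 0) (v) : quadFormPlus 4 (ZMod 3) v = v ⬝ᵥ M *ᵥ v := by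
  simp [h, quadFormPlus, dotProduct, Fintype.sum_sum_type, fromBlocks_mulVec]

theorem model3 : ∃ m : ℕ → M3, (∀ r ∈ RP, ev m r = 1) ∧ clo m (gensW 9) = ⊤ := by
  obtain ⟨_, _, D, f, h2, h3⟩ := linO.hasReps_POmega (tabP_ok (ZMod 3) 3 (by decide)) finSumFinEquiv
    (Q := CF.Geom.qPlus 4 (ZMod 3)) (CF.Geom.qPlus_nondegenerate 4) (by decide) (hQ3 (by decide +kernel)) omO
  have hc := card_M3
  have : Finite M3 := Nat.finite_of_card_ne_zero (by rw [hc]; decide)
  have F := chO.faithful h2 h3 (H := ⊤) (fun _ => trivial) (Subgroup.card_top.trans hc).le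
  refine ⟨f, fun r hr => h2.eq_one_of_idW (k := 11) (by decide) F trivial (lall_iff.1 relO r hr),
    Subgroup.eq_top_of_le_card _ (hc.trans_le (chO.le_card h2 h3 fun i => ?_))⟩
  exact (clo_gensW h3).ge (Subgroup.subset_closure ⟨i, rfl⟩)

theorem exists_emb3 {G : Type*} [Group G] {f : ℕ → G} (hr : ∀ r ∈ RP, ev f r = 1) (h1 : f 0 ≠ 1) :
    Nonempty (clo f (gensW 9) ≃* M3) := by
  obtain ⟨m, h2, h3⟩ := model3
  have := simple_M3
  obtain ⟨φ, a, b, -⟩ := (bnd3 (ug_rels _)).exists_inj h2 h3 card_M3 hr (w := [1]) (by decide +kernel)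
    (by rwa [show ev f [1] = f 0 from ev_single f 0])
  exact ⟨b ▸ (MonoidHom.ofInjective a).symm⟩

end CF.P83
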