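import Cfsg.Agent.P83.XD
import Cfsg.Agent.LX4.O6

/-! A subgroup that is isomorphic with the orthogonal group over the field of two elements. -/

set_option autoImplicit false
set_option maxRecDepth 1000000
set_option linter.unusedSectionVars false

namespace CF.P83
open Cfsg Subgroup CF.Loc CF.Even CF.LX CF.J4 CF.Comp CF.Dce CF.LX4 CF.Schur.Pc

/-- the matrix of a word -/
noncomputable def bv (w : List ℕ) : ℕ := Nat.mod (bev 8 XM w) (nat_lit 0x10000000000000000)

/-- the base letters as words in the extended letters -/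
def BW : List (List ℕ) := [[19], [25], [1], [1, 31, 1], [21], [27], [23], [29]]

theorem bm_mod (A : ℕ) : bm 8 (A % 2 ^ 64) = bm 8 A := by
  ext i j
  simp only [bm, Matrix.of_apply, Nat.testBit_mod_two_pow]
  rw [decide_eq_true (by omega : 8 * (i : ℕ) + j < 64), Bool.true_and]

theorem bm_inj8 {A B : ℕ} (h : bm 8 A = bm 8 B) : A % 2 ^ 64 = B % 2 ^ 64 := Nat.eq_of_testBit_eq fun k => by
  rw [Nat.testBit_mod_two_pow, Nat.testBit_mod_two_pow]
  by_cases hk : k < 64
  · have := congrFun (congrFun h ⟨k / 8, by omega⟩) ⟨k % 8, by omega⟩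
    simp only [bm, Matrix.of_apply, Nat.div_add_mod] at this
    rw [(by decide : ∀ x y : Bool, b2z x = b2z y → x = y) _ _ this]
  · simp [hk]

variable {G : Type*} [Group G]

theorem card_cos [Finite G] {P U : Subgroup G} (hP : P ≤ U) {n : ℕ} {x : ℕ → G} (hx : ∀ i < n, x i ∈ U)
    (h : ∀ i < n, ∀ j < n, (x i)⁻¹ * x j ∈ P → i = j) : n * Nat.card P ≤ Nat.card U := by
  have := Nat.card_le_card_of_injective (fun p : Fin n × P => (⟨x p.1 * p.2, mul_mem (hx _ p.1.2) (hP p.2.2)⟩ : U))
    fun p q e => by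
      have e : x p.1 * p.2 = x q.1 * q.2 := congrArg Subtype.val e
      have := h _ p.1.2 _ q.1.2 (by
        rw [show (x p.1)⁻¹ * x q.1 = p.2 * (q.2 : G)⁻¹ by
          rw [inv_mul_eq_iff_eq_mul, ← mul_assoc, e, mul_inv_cancel_right]]
        exact mul_mem p.2.2 (inv_mem q.2.2))
      have k : p.1 = q.1 := Fin.ext this
      rw [k] at e
      exact Prod.ext k (Subtype.ext (mul_left_cancel e))
  simpa using this

/-- the subgroup and its extended letters -/
structure Md (K : Subgroup G) (g : ℕ → G) : Prop where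
  orc : ∀ u w, ev g u = ev g w ↔ bv u = bv w
  mem : ∀ i, g i ∈ K
  gen : ∀ L : Subgroup G, (∀ i < 16, g i ∈ L) → K ≤ L
  card : Nat.card K = 174182400
  simple : IsSimpleGroup K
  cen : Nat.card ↥(K ⊓ 𝐂₁(g 8)) ≤ 110592

/-- one step of the enumeration of the class -/
noncomputable def cls (i : ℕ) : Bool := force (fld 20 CP i) fun v => force (fld 64 CB i) fun A =>
  Bool.rec false (Bool.rec (force (nth 0 XM (2 * (v / 2048 % 16))) fun X => Bool.rec false (Bool.rec false
    (Nat.blt (fld 20 CP (v % 2048) / 32768) (v / 32768)) (Nat.blt (v % 2048) 1575))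
      (Nat.beq (mulB 8 (mulB 8 X (fld 64 CB (v % 2048))) X) A)) true (Nat.beq A (nth 0 XM 16)))
    (Bool.rec (Nat.blt A (fld 64 CB (i + 1))) true (Nat.beq i 1574))

theorem cls_ok : allFrom cls 0 1575 = true := by decide +kernel

theorem exists_md [Finite G] {K : Subgroup G} (e : K ≃* Om.M8) : ∃ g, Md K g := by
  obtain ⟨F, h, top⟩ := Om.model
  have inj : Function.Injective Om.ρ :=
    (Matrix.reindexRingEquiv _ _).injective.comp fun _ _ e => Subtype.ext (Subtype.ext (Units.ext e))
  have h' : BM Om.ρ XM (evs F XW) := h.new (m := 16) rfl (by decide +kernel) (allFrom_zero.1 (by decide +kernel))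
  generalize evs F XW = f at h'
  let φ : Om.M8 →* G := K.subtype.comp e.symm.toMonoidHom
  have i : Function.Injective φ := K.subtype_injective.comp e.symm.injective
  have m : ∀ x, φ x ∈ K := fun x => (e.symm x).2
  have cK : Nat.card K = 174182400 := (Nat.card_congr e.toEquiv).trans Bt.card_O8p
  have := Bt.simple_O8p
  refine ⟨fun i => φ (f i), fun u w => ?_, fun _ => m _, fun L hL x hx => ?_, cK, e.isSimpleGroup, ?_⟩
  · rw [← map_ev, ← map_ev, i.eq_iff, ← inj.eq_iff, h'.ev, h'.ev]
    exact ⟨bm_inj8, fun k => by rw [← bm_mod, ← bm_mod (bev 8 XM w)]; exact congrArg (bm 8) k⟩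
  · have : clo F (gensW 8) ≤ L.comap φ := clo_le.2 fun w hw => by
      obtain ⟨i, hi, rfl, k, k'⟩ := (by decide +kernel : ∀ w ∈ gensW 8, ∃ i < 8, w = [2 * i + 1] ∧
        nth (idB 8) Om.NM (2 * i) = bev 8 XM (nth [] BW i) ∧ ∀ x ∈ nth [] BW i, x ≤ 2 * 16) w hw
      rw [ev_single, inj (a₁ := F i) (a₂ := ev f (nth [] BW i)) (by rw [h.val, h'.ev, k]),
        ev_congr (g := fun i => if i < 16 then f i else 1) (fun i hi => (if_pos hi).symm) k']
      exact ev_mem (fun i => by
        split_ifs with l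
        exacts [hL i l, one_mem _]) _
    simpa [φ] using this (top.ge (mem_top (e ⟨x, hx⟩)))
  have c := fun i hi => allFrom_zero.1 cls_ok i hi
  simp only [cls, force_eq, brec_and, brec_or, beq_iff, Nat.blt_eq] at c
  have key : ∀ d, ∀ i < 1575, fld 20 CP i / 32768 = d → ∃ k, Om.ρ (k * f 8 * k⁻¹) = bm 8 (fld 64 CB i) := fun d => by
    induction d using Nat.strong_induction_on with
    | _ d ih =>
      intro i hi hd
      rcases (c i hi).2 with k | ⟨k1, k2, k3⟩
      · exact ⟨1, by rw [one_mul, inv_one, mul_one, h'.val, k]; rfl⟩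
      · obtain ⟨k, e⟩ := ih _ (hd ▸ k3) _ k2 rfl
        generalize hl : fld 20 CP i / 2048 % 16 = l at k1
        have ll : l < 16 := hl ▸ Nat.mod_lt _ (by norm_num)
        have v : Om.ρ (f l) = bm 8 (nth 0 XM (2 * l)) := by
          rw [h'.val, (by decide +kernel : ∀ l < 16, nth (idB 8) XM (2 * l) = nth 0 XM (2 * l)) l ll]
        have s : f l * f l = 1 := inj (by
          rw [map_mul, v, ← bm_mulB, map_one, ← bm_idB,
            (by decide +kernel : ∀ l < 16, mulB 8 (nth 0 XM (2 * l)) (nth 0 XM (2 * l)) = idB 8) l ll])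
        refine ⟨f l * k, ?_⟩
        rw [show f l * k * f 8 * (f l * k)⁻¹ = f l * (k * f 8 * k⁻¹) * (f l)⁻¹ by group, inv_eq_of_mul_eq_one_right s,
          map_mul, map_mul, e, v, ← k1, bm_mulB, bm_mulB]
  choose! k hk using fun i hi => key _ i hi rfl
  have mono : ∀ j < 1575, ∀ i < j, fld 64 CB i < fld 64 CB j := fun j => by
    induction j with
    | zero => simp
    | succ j ih =>
      intro hj i hi
      have := ((c j (by omega)).1).resolve_left (by omega)
      exact (Nat.lt_succ_iff_lt_or_eq.1 hi).elim (fun l => (ih (by omega) i l).trans this) fun l => l ▸ this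
  have := card_cos (P := K ⊓ 𝐂₁(φ (f 8))) inf_le_left (x := fun i => φ (k i)) (fun i _ => m _) fun a ha b hb hab => by
    have e1 : (k a)⁻¹ * k b * f 8 = f 8 * ((k a)⁻¹ * k b) := i (by simpa using mem_c1.1 hab.2)
    have e2 : k a * f 8 * (k a)⁻¹ = k b * f 8 * (k b)⁻¹ := by
      calc _ = k a * (f 8 * ((k a)⁻¹ * k b)) * (k b)⁻¹ := by group
        _ = _ := by rw [← e1]; group
    have e3 := bm_inj8 ((hk a ha).symm.trans ((congrArg Om.ρ e2).trans (hk b hb)))
    rw [fld, fld, Nat.mod_mod, Nat.mod_mod] at e3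
    by_contra n
    rcases Nat.lt_or_gt_of_ne n with l | l
    exacts [(mono b hb a l).ne e3, (mono a ha b l).ne e3.symm]
  rw [cK] at this
  omega

end CF.P83
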