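import Cfsg.Agent.P83.Md

/-! The extraspecial subgroup. -/

set_option autoImplicit false
set_option maxRecDepth 1000000
set_option synthInstance.maxSize 2000
set_option linter.unusedSectionVars false

namespace CF.P83
open Cfsg Subgroup CF.Loc CF.Even CF.LX CF.J4 CF.Comp CF.Dce CF.LX4 CF.MonU Equiv Equiv.Perm
open CF.ThR (q8 b8 el qm apq el_pow el_shl el_zero conj_chi pr4 qm_eq chi_congr)

/-- the word of a product of letters -/
noncomputable def cw (k n c : ℕ) : List ℕ :=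
  Nat.rec (motive := fun _ => List ℕ) [] (fun j r => Bool.rec r (lapp r [2 * (j + k) + 1]) (tb c j)) n

/-- the word of a code -/
noncomputable def qw (c : ℕ) : List ℕ := lapp (lapp (cw 0 4 c) (cw 4 4 (c >>> 4))) (wpow [17] (c >>> 8))

variable {G : Type*} [Group G]

theorem ev_cw (g : ℕ → G) (k n c : ℕ) : ev g (cw k n c) = chi (fun i => g (i + k)) n c := by
  induction n with
  | zero => rfl
  | succ n ih =>
    rw [chi_succ, ← ih, show cw k (n + 1) c = Bool.rec (motive := fun _ => List ℕ) (cw k n c)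
      (lapp (cw k n c) [2 * (n + k) + 1]) (tb c n) from rfl, tb_eq]
    cases c.testBit n
    · rfl
    · exact (ev_lapp _ _ _).trans (by rw [ev_single]; rfl)

theorem ev_qw (g : ℕ → G) (c : ℕ) : ev g (qw c) = el g (g 8) c := by
  rw [qw, ev_lapp, ev_lapp, ev_cw, ev_cw, ev_wpow, show ev g [17] = g 8 from ev_single g 8]; rfl

/-- the extraspecial group -/
def QQ (g : ℕ → G) : Subgroup G := closure {x | ∃ i < 9, x = g i}

open _root_.Classical in
/-- the codes -/
noncomputable def cod (g : ℕ → G) (x : G) : ℕ := if h : ∃ c, x = el g (g 8) c then h.choose % 256 else 0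

variable {K : Subgroup G} {g : ℕ → G}

local notation "z" => g 8
local notation "E" => el g (g 8)
local notation "Q" => QQ g
local notation "π" => cod g

theorem g_mem {i : ℕ} (hi : i < 9) : g i ∈ Q := subset_closure ⟨i, hi, rfl⟩

theorem el_mem (c : ℕ) : E c ∈ Q := mul_mem (mul_mem (chi_mem (fun i hi => g_mem (by omega)) _)
  (chi_mem (fun i hi => g_mem (by omega)) _)) (pow_mem (g_mem (by omega)) _)

namespace Md
variable (h : Md K g)
include h

theorem same {u w : List ℕ} (e : bv u = bv w) : ev g u = ev g w := (h.orc u w).2 e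

theorem gg {i : ℕ} (hi : i < 16) : g i * g i = 1 := by
  simpa only [ev_cons, ev_nil, evL_odd, mul_one] using h.same (u := [2 * i + 1, 2 * i + 1]) (w := [])
    (by revert i; decide +kernel)

theorem gi {i : ℕ} (hi : i < 16) : (g i)⁻¹ = g i := inv_eq_of_mul_eq_one_right (h.gg hi)

theorem gc {i j : ℕ} (e : bv [2 * i + 1, 2 * j + 1] = bv [2 * j + 1, 2 * i + 1]) : g i * g j = g j * g i := by
  simpa only [ev_cons, ev_nil, evL_odd, mul_one] using h.same e

theorem zz : z * z = 1 := h.gg (by omega)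

theorem gz {i : ℕ} (hi : i < 15) : g i ∈ 𝐂₁(z) := mem_c1.2 (h.gc (by revert i; decide +kernel))

theorem z_ne : z ≠ 1 := fun e => absurd ((h.orc [17] []).1 ((ev_single g 8).trans e)) (by decide +kernel)

theorem QK : Q ≤ K := (closure_le _).2 fun _ ⟨i, _, e⟩ => e ▸ h.mem i

theorem Qz : Q ≤ 𝐂₁(z) := (closure_le _).2 fun _ ⟨i, hi, e⟩ => e ▸ h.gz (by omega)

theorem zpc {x : G} (hx : x ∈ 𝐂₁(z)) (k : ℕ) : z ^ k * x = x * z ^ k :=
  ((show Commute x z from mem_c1.1 hx).pow_right k).symm.eq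

theorem el_mul (a b : ℕ) : E a * E b = E (qm a b) := by
  have c : ∀ k, ∀ i < 4, ∀ j < 4, k = 0 ∨ k = 4 → g (i + k) * g (j + k) = g (j + k) * g (i + k) := fun k i hi j hj hk =>
    h.gc (by revert i j; rcases hk with rfl | rfl <;> decide +kernel)
  have e := h.same ((by decide +kernel : ∀ a < 16, ∀ b < 16, bv (lapp (cw 4 4 a) (cw 0 4 b)) =
    bv (lapp (lapp (cw 0 4 b) (cw 4 4 a)) (wpow [17] (pr4 (a &&& b))))) _ (Nat.mod_lt (a >>> 4) (by decide)) _
      (Nat.mod_lt b (by decide)))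
  have m : ∀ f : ℕ → G, ∀ c, chi f 4 (c % 16) = chi f 4 c := fun f c => chi_congr f fun i hi => by
    rw [show (16 : ℕ) = 2 ^ 4 from rfl, Nat.testBit_mod_two_pow]; simp [hi]
  rw [ev_lapp, ev_lapp, ev_lapp, ev_cw, ev_cw, ev_wpow, show ev g [17] = z from ev_single g 8, m, m,
    show (16 : ℕ) = 2 ^ 4 from rfl, ← Nat.and_mod_two_pow,
    show pr4 ((a >>> 4 &&& b) % 2 ^ 4) = pr4 (a >>> 4 &&& b) by
      generalize a >>> 4 &&& b = t
      unfold pr4
      exact congrArg par (show t % 2 ^ 4 &&& (2 ^ 4 - 1) = t &&& (2 ^ 4 - 1) by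
        rw [Nat.and_two_pow_sub_one_eq_mod, Nat.and_two_pow_sub_one_eq_mod, Nat.mod_mod])] at e
  simp only [add_zero] at e
  rw [qm_eq, el, el, el, Nat.shiftRight_xor_distrib, Nat.shiftRight_xor_distrib, Nat.shiftRight_xor_distrib,
    Nat.shiftRight_xor_distrib, Nat.shiftLeft_shiftRight, zp_xor h.zz, zp_xor h.zz,
    chi_congr g (a := a ^^^ b ^^^ _) (b := a ^^^ b) fun i hi => by simp [Nat.testBit_shiftLeft, show ¬ 8 ≤ i by omega],
    chi_congr _ (a := a >>> 4 ^^^ b >>> 4 ^^^ _) (b := a >>> 4 ^^^ b >>> 4) fun i hi => by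
      simp [Nat.testBit_shiftLeft, show ¬ 8 ≤ 4 + i by omega],
    chi_xor (g := g) (fun i hi => h.gg (by omega)) fun i hi j hj => c 0 i hi j hj (.inl rfl),
    chi_xor (fun i hi => h.gg (by omega)) fun i hi j hj => c 4 i hi j hj (.inr rfl)]
  have z1 := h.zpc (chi_mem (g := g) (n := 4) (fun i hi => h.gz (by omega)) b) (a >>> 8)
  have z2 := h.zpc (chi_mem (g := fun i => g (i + 4)) (n := 4) (fun i hi => h.gz (by omega)) (b >>> 4))
  calc _ = chi g 4 a * (chi (fun i => g (i + 4)) 4 (a >>> 4) * (z ^ (a >>> 8) * chi g 4 b)) *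
        chi (fun i => g (i + 4)) 4 (b >>> 4) * z ^ (b >>> 8) := by group
    _ = _ := by
      rw [z1, ← mul_assoc (chi _ 4 (a >>> 4)), e]
      simp only [mul_assoc]
      rw [← mul_assoc (z ^ (a >>> 8)), z2, mul_assoc, ← mul_assoc (z ^ pr4 _), z2]
      group

theorem el_split (c : ℕ) : E c = E (c % 256) * z ^ (c >>> 8) := by
  rw [el, el, chi_congr g (a := c % 256) (b := c) fun i hi => by
      rw [show (256 : ℕ) = 2 ^ 8 from rfl, Nat.testBit_mod_two_pow]; simp [show i < 8 by omega],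
    chi_congr _ (a := (c % 256) >>> 4) (b := c >>> 4) fun i hi => by
      rw [Nat.testBit_shiftRight, Nat.testBit_shiftRight, show (256 : ℕ) = 2 ^ 8 from rfl, Nat.testBit_mod_two_pow]
      simp [show 4 + i < 8 by omega],
    show (c % 256) >>> 8 = 0 from Nat.shiftRight_eq_zero _ _ (Nat.mod_lt _ (by norm_num)), pow_zero, mul_one]

theorem zp_cases (k : ℕ) : z ^ k = 1 ∨ z ^ k = z := by
  induction k with
  | zero => exact .inl (pow_zero _)
  | succ k ih => rw [pow_succ]; exact ih.symm.imp (fun e => by rw [e, h.zz]) fun e => by rw [e, one_mul]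

theorem el_sq (c : ℕ) : E c * E c = z ^ q8 (c % 256) := by
  have m := h.Qz (el_mem (c % 256))
  rw [h.el_split, mul_assoc, ← mul_assoc (z ^ _), h.zpc m, mul_assoc, zp_self h.zz, mul_one, h.el_mul,
    (by decide +kernel : ∀ c < 256, qm c c = q8 c <<< 8) _ (Nat.mod_lt _ (by norm_num)), el_shl]

theorem el_ker {c : ℕ} (e : E c = 1 ∨ E c = z) : c % 256 = 0 := by
  have : E (c % 256) = 1 ∨ E (c % 256) = z := by
    rw [h.el_split] at e
    rcases h.zp_cases (c >>> 8) with k | k <;> rw [k] at e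
    · simpa using e
    · exact e.symm.imp (fun e => by simpa using e) fun e => by rw [mul_eq_one_iff_eq_inv.1 e, h.gi (by omega)]
  rw [← ev_qw, ← ev_nil g, ← ev_single g 8, h.orc, h.orc] at this
  exact (by decide +kernel : ∀ c < 256, bv (qw c) = bv [] ∨ bv (qw c) = bv [2 * 8 + 1] → c = 0) _
    (Nat.mod_lt _ (by norm_num)) this

omit h in
theorem qm_mod (a b : ℕ) : qm a b % 256 = a % 256 ^^^ b % 256 := by
  rw [qm_eq, show (256 : ℕ) = 2 ^ 8 from rfl, Nat.xor_mod_two_pow, Nat.xor_mod_two_pow, Nat.shiftLeft_eq,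
    Nat.mul_mod_left, Nat.xor_zero]

theorem π_el (c : ℕ) : π (E c) = c % 256 := by
  have k : ∃ d, E c = E d := ⟨c, rfl⟩
  rw [cod, dif_pos k]
  have := h.el_mul c k.choose
  rw [← k.choose_spec, h.el_sq] at this
  have := h.el_ker (this ▸ h.zp_cases _)
  rw [qm_mod] at this
  exact (Nat.eq_of_xor_eq_zero this).symm

theorem el_surj {x : G} (hx : x ∈ Q) : ∃ c, x = E c := by
  induction hx using closure_induction with
  | mem x k =>
    obtain ⟨i, hi, rfl⟩ := k
    rcases Nat.lt_succ_iff_lt_or_eq.1 hi with l | rfl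
    exacts [⟨_, (el_pow g z l).symm⟩, ⟨_, ((el_shl g z 1).trans (pow_one _)).symm⟩]
  | one => exact ⟨_, (el_zero g z).symm⟩
  | mul x y _ _ a b =>
    obtain ⟨a, rfl⟩ := a
    obtain ⟨b, rfl⟩ := b
    exact ⟨_, h.el_mul a b⟩
  | inv x _ a =>
    obtain ⟨a, rfl⟩ := a
    refine ⟨qm a (qm a a), inv_eq_of_mul_eq_one_right ?_⟩
    rw [← h.el_mul, ← h.el_mul, ← mul_assoc, h.el_sq, zp_self h.zz]

theorem ord : orderOf z = 2 := orderOf_eq_prime (by rw [sq, h.zz]) h.z_ne

theorem co : Co 8 Q (zpowers z) π where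
  pos := by norm_num
  le := zpowers_le.2 (g_mem (by omega))
  mul := fun a ha b hb => by
    obtain ⟨a, rfl⟩ := h.el_surj ha
    obtain ⟨b, rfl⟩ := h.el_surj hb
    rw [h.el_mul, h.π_el, h.π_el, h.π_el, qm_mod]
  lt := fun a ha => by
    obtain ⟨a, rfl⟩ := h.el_surj ha
    rw [h.π_el]; exact Nat.mod_lt _ (by norm_num)
  surj := fun c hc => ⟨_, el_mem c, (h.π_el c).trans (Nat.mod_eq_of_lt hc)⟩
  ker := fun a ha => by
    obtain ⟨a, rfl⟩ := h.el_surj ha
    rw [h.π_el, mem_zpowers_invol h.ord]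
    exact ⟨fun e => by rw [h.el_split, e, el_zero, one_mul]; exact h.zp_cases _, h.el_ker⟩

theorem sq' (e : G) (he : e ∈ Q) : e * e = z ^ q8 (π e) := by
  obtain ⟨a, rfl⟩ := h.el_surj he
  rw [h.el_sq, h.π_el]

theorem fq (i : ℕ) (hi : i < 8) : g i ∈ Q ∧ π (g i) = 2 ^ i :=
  ⟨g_mem (by omega), by rw [← el_pow g z hi, h.π_el]; exact Nat.mod_eq_of_lt (Nat.pow_lt_pow_right one_lt_two hi)⟩

theorem ex : EX Q z := by
  have c : ∀ x ∈ Q, x ∈ 𝐂(Q) → x = 1 ∨ x = z := fun x hx k => by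
    refine (mem_zpowers_invol h.ord).1 ((h.co.ker x hx).1 ?_)
    obtain ⟨c, rfl⟩ := h.el_surj hx
    rw [h.π_el]
    refine (by decide +kernel : ∀ c < 256, (∀ i < 8, bv ((2 * i + 1) :: qw c) = bv (qw c ++ [2 * i + 1])) → c = 0) _
      (Nat.mod_lt _ (by norm_num)) fun i hi => (h.orc _ _).1 ?_
    have := k _ (h.fq i hi).1
    rw [h.el_split, mul_assoc (E _), h.zpc (h.gz (by omega)), ← mul_assoc, ← mul_assoc] at this
    rw [ev_cons, ev_append, ev_single, evL_odd, ev_qw, mul_right_cancel this]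
  refine ⟨⟨g_mem (by omega), h.ord, fun x hx => mem_c1.1 (h.Qz hx), fun x hx => h.sq' x hx ▸ h.zp_cases _,
    fun x a b _ => c x a b⟩, c, fun l => ?_⟩
  have := h.fq 0 (by omega)
  rw [(h.co.ker _ this.1).2 (l this.1)] at this
  exact absurd this.2 (by norm_num)

theorem card_Q [Finite G] : Nat.card Q = 2 ^ 9 := by rw [h.co.card, h.ex.card_z]; rfl

end Md

end CF.P83
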