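import Cfsg.Agent.P83.Q1

/-! The centraliser of the root involution in the subgroup. -/

set_option autoImplicit false
set_option maxRecDepth 1000000
set_option synthInstance.maxSize 2000
set_option linter.unusedSectionVars false

namespace CF.P83
open Cfsg Subgroup CF.Loc CF.Even CF.LX CF.J4 CF.Comp CF.Dce CF.LX4 CF.MonU Equiv Equiv.Perm
open CF.ThR (q8 b8 el qm apq el_pow el_shl el_zero conj_chi norm_c1)

/-- the images of the root elements -/
noncomputable def ga (j : ℕ) : Γ3 := nth 1 [sv 1, sv 2, sv 4, pv (swap 1 2) 1, pv (swap 1 2) 2, pv (swap 1 2) 4] j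

theorem ν_lt (γ : Γ3) : ν γ < 2 ^ (8 * 8) := mm_lt (by norm_num) _ _

theorem ν_inj {γ δ : Γ3} (e : ν γ = ν δ) : γ = δ :=
  mul_inv_eq_one.1 ((by decide +kernel : ∀ γ, ν γ = mo 8 → γ = 1) _ (by rw [ν_mul, e, ← ν_mul, mul_inv_cancel, ν_one]))

theorem sq_of_two {γ : Γ3} {k : ℕ} (e : γ ^ 2 ^ k = 1) : γ ^ 2 = 1 := by
  have a : (γ ^ 2) ^ 3 = 1 := (by decide +kernel : ∀ γ : Γ3, (γ ^ 2) ^ 3 = 1) γ
  have b : (γ ^ 2) ^ 2 ^ k = 1 := by rw [← pow_mul, mul_comm, pow_mul, e, one_pow]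
  simpa [(Nat.Coprime.pow_right k (by norm_num : Nat.Coprime 3 2)).gcd_eq_one] using pow_gcd_eq_one.2 ⟨a, b⟩

variable {G : Type*} [Group G]

open _root_.Classical in
/-- the image in the quotient -/
noncomputable def ph (g : ℕ → G) (x : G) : Γ3 := if h : ∃ γ, Ac 8 (QQ g) (cod g) x (ν γ) then h.choose else 1

variable [Finite G] {K : Subgroup G} {g : ℕ → G}

local notation "z" => g 8
local notation "n" => g 15
local notation "E" => el g (g 8)
local notation "Q" => QQ g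
local notation "π" => cod g
local notation "Φ" => ph g
local notation "C0" => K ⊓ 𝐂₁(g 8)

namespace Md
variable (h : Md K g)
include h

theorem el_surj' {x : G} (hx : x ∈ Q) : ∃ c < 512, x = E c := by
  obtain ⟨c, rfl⟩ := h.el_surj hx
  have l := Nat.mod_lt c (show 0 < 256 by norm_num)
  rw [h.el_split]
  rcases h.zp_cases (c >>> 8) with e | e <;> rw [e]
  · exact ⟨_, by omega, mul_one _⟩
  · refine ⟨_, (by decide +kernel : ∀ c < 256, qm c (1 <<< 8) < 512) _ l, ?_⟩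
    rw [← h.el_mul, el_shl, pow_one]

theorem nz {x : G} (hx : x ∈ 𝐂₁(z)) : x ∈ 𝐍(zpowers z) := centralizer_le_normalizer _ (by rwa [centralizer_zpowers])

theorem αa {j : ℕ} (hj : j < 6) (i : ℕ) (hi : i < 8) : g (j + 9) * g i * (g (j + 9))⁻¹ = E (fld 9 (nth 0 AL j) i) := by
  rw [h.gi (by omega), ← ev_qw, ← h.same (u := [2 * (j + 9) + 1, 2 * i + 1, 2 * (j + 9) + 1])
    (by revert i j; decide +kernel)]
  simp only [ev_cons, ev_nil, evL_odd, mul_one, mul_assoc]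

theorem nor_of {x : G} (hx : x ∈ 𝐂₁(z)) (e : ∀ i < 8, x * g i * x⁻¹ ∈ Q) : x ∈ 𝐍(Q) :=
  mem_normalizer_of_cj_le (cj_le_iff.2 ((closure_le _).2 fun _ ⟨i, hi, k⟩ => k ▸ mem_cj.2 (by
    rw [inv_inv]
    rcases Nat.lt_succ_iff_lt_or_eq.1 hi with l | rfl
    exacts [e i l, (conj_eq_iff.2 (mem_c1.1 hx)).symm ▸ g_mem hi])))

theorem ac_of {x : G} (hx : x ∈ 𝐂₁(z)) {A M : ℕ} (e : ∀ i < 8, x⁻¹ * g i * x = E (fld 9 A i))
    (k : ∀ i < 8, fld 9 A i % 256 = fld 8 M i) : Ac 8 Q π x M :=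
  h.co.of_gens (inv_mem_iff.1 (h.nor_of (inv_mem hx) fun i hi => by rw [inv_inv, e i hi]; exact el_mem _)) (h.nz hx)
    fun i hi => ⟨_, (h.fq i hi).1, (h.fq i hi).2, by rw [e i hi, h.π_el, k i hi]⟩

theorem αac {j : ℕ} (hj : j < 6) : Ac 8 Q π (g (j + 9)) (ν (ga j)) :=
  h.ac_of (h.gz (by omega)) (A := nth 0 AL j) (fun i hi => by rw [← h.αa hj i hi, h.gi (by omega)])
    (by revert j; decide +kernel)

theorem ph_eq {x : G} {γ : Γ3} (a : Ac 8 Q π x (ν γ)) : Φ x = γ := by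
  have k : ∃ γ, Ac 8 Q π x (ν γ) := ⟨γ, a⟩
  rw [ph, dif_pos k]
  exact ν_inj (h.co.uniq' k.choose_spec a (ν_lt _) (ν_lt _))

theorem ΦQ {x : G} (hx : x ∈ Q) : Φ x = 1 := h.ph_eq (ν_one ▸ h.co.ac_self hx)

theorem Φα {j : ℕ} (hj : j < 6) : Φ (g (j + 9)) = ga j := h.ph_eq (h.αac hj)

theorem c0 : (∀ x ∈ C0, Ac 8 Q π x (ν (Φ x))) ∧ (∀ γ, ∃ x ∈ C0, Φ x = γ) ∧ (∀ x ∈ C0, Φ x = 1 → x ∈ Q) ∧
    C0 = closure {x | ∃ i < 15, x = g i} := by
  generalize eC : closure {x | ∃ i < 15, x = g i} = C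
  have m : ∀ i < 15, g i ∈ C := fun i hi => eC ▸ subset_closure ⟨i, hi, rfl⟩
  have a : ∀ x ∈ C, Ac 8 Q π x (ν (Φ x)) := fun x hx => by
    suffices k : ∃ γ, Ac 8 Q π x (ν γ) by
      obtain ⟨γ, k⟩ := k
      rwa [h.ph_eq k]
    rw [← eC] at hx
    induction hx using closure_induction with
    | mem x k =>
      obtain ⟨i, hi, rfl⟩ := k
      rcases lt_or_ge i 9 with l | l
      · exact ⟨1, ν_one ▸ h.co.ac_self (g_mem l)⟩
      · obtain ⟨j, rfl⟩ := Nat.exists_eq_add_of_le' l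
        exact ⟨_, h.αac (by omega)⟩
    | one => exact ⟨1, ν_one ▸ h.co.cd.one'⟩
    | mul x y _ _ a b =>
      obtain ⟨a, e⟩ := a
      obtain ⟨b, e'⟩ := b
      exact ⟨a * b, ν_mul _ _ ▸ h.co.cd.mul' e e'⟩
    | inv x _ a =>
      obtain ⟨a, e⟩ := a
      exact ⟨a⁻¹, h.co.cd.inv' e rfl (by rw [← ν_mul, mul_inv_cancel, ν_one])⟩
  have hom : HomOn C Φ := fun x hx y hy => h.ph_eq (ν_mul _ _ ▸ h.co.cd.mul' (a x hx) (a y hy))
  have sur : hom.im C le_rfl = ⊤ := eq_top_iff.2 fun γ _ => mem_of_gn (fun j hj => hom.mem_im.2 (by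
    obtain ⟨l, hl, e | e⟩ := (by decide +kernel : ∀ j < 6, ∃ l < 3, gn j = ga l ∨ gn j = ga l * ga (l + 3)) j hj
    · exact ⟨_, m _ (by omega), (h.Φα (by omega)).trans e.symm⟩
    · exact ⟨_, mul_mem (m (l + 9) (by omega)) (m (l + 3 + 9) (by omega)), by
        rw [hom _ (m _ (by omega)) _ (m _ (by omega)), h.Φα (by omega), h.Φα (by omega), e]⟩)) γ
  have c := hom.card_eq le_rfl (Z := hom.pre ⊥) fun x => hom.mem_pre
  rw [sur, show Nat.card (⊤ : Subgroup Γ3) = 216 by simp [Fintype.card_perm, Nat.factorial]] at c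
  have l1 : Q ≤ hom.pre ⊥ := fun x hx => hom.mem_pre.2
    ⟨(show Q ≤ C from (closure_le _).2 fun _ ⟨i, hi, e⟩ => e ▸ m i (by omega)) hx, h.ΦQ hx⟩
  have l2 : C ≤ C0 := eC ▸ (closure_le _).2 fun _ ⟨i, hi, e⟩ => e ▸ ⟨h.mem i, h.gz hi⟩
  have c1 := card_le_of_le l1
  have c2 := card_le_of_le l2
  have c3 := h.cen
  rw [h.card_Q] at c1
  have e1 := Loc.eq_of_le_of_card_le l1 (by rw [h.card_Q]; omega)
  rw [← Loc.eq_of_le_of_card_le l2 (by omega)]
  exact ⟨a, fun γ => hom.mem_im.1 (sur.ge (mem_top γ)), fun x hx e => e1.ge (hom.mem_pre.2 ⟨hx, e⟩), rfl⟩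

theorem ac {x : G} (hx : x ∈ C0) : Ac 8 Q π x (ν (Φ x)) := h.c0.1 x hx

theorem sur (γ : Γ3) : ∃ x ∈ C0, Φ x = γ := h.c0.2.1 γ

theorem kr {x : G} (hx : x ∈ C0) (e : Φ x = 1) : x ∈ Q := h.c0.2.2.1 x hx e

theorem C0_le {L : Subgroup G} (k : ∀ i < 15, g i ∈ L) : C0 ≤ L :=
  h.c0.2.2.2 ▸ (closure_le _).2 fun _ ⟨i, hi, e⟩ => e ▸ k i hi

theorem hom : HomOn (C0) Φ := fun _ hx _ hy => h.ph_eq (ν_mul _ _ ▸ h.co.cd.mul' (h.ac hx) (h.ac hy))

theorem QC : Q ≤ C0 := le_inf h.QK h.Qz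

theorem gC {i : ℕ} (hi : i < 15) : g i ∈ C0 := ⟨h.mem i, h.gz hi⟩

theorem div_mem {x y : G} (hx : x ∈ C0) (hy : y ∈ C0) (e : Φ x = Φ y) : x⁻¹ * y ∈ Q :=
  h.kr (mul_mem (inv_mem hx) hy) (by rw [h.hom _ (inv_mem hx) _ hy, h.hom.inv hx, e, inv_mul_cancel])

theorem sq_Φ {R : Subgroup G} (h2 : IsPGroup 2 R) {x : G} (hx : x ∈ R) (l : x ∈ C0) : Φ x ^ 2 = 1 := by
  obtain ⟨k, e⟩ := isPGroup_iff_forall.1 h2 x hx
  exact sq_of_two (k := k) (by rw [← h.hom.pow l, e, h.hom.one])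

theorem core {R : Subgroup G} (h2 : IsPGroup 2 R) (l : R ≤ C0) (m : C0 ≤ 𝐍(R)) : R ≤ Q := fun x hx => by
  obtain ⟨k, hk, e⟩ := h.sur (yv 7)
  have a := mul_mem (norm_mem' (m hk) hx) (inv_mem hx)
  have b := h.sq_Φ h2 a (l a)
  rw [h.hom _ (l (norm_mem' (m hk) hx)) _ (inv_mem (l hx)), h.hom.conj hk (l hx), h.hom.inv (l hx), e] at b
  exact h.kr (l hx) ((by decide +kernel : ∀ γ : Γ3, γ ^ 2 = 1 → (yv 7 * γ * (yv 7)⁻¹ * γ⁻¹) ^ 2 = 1 → γ = 1) _
    (h.sq_Φ h2 hx (l hx)) b)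

theorem norQ {c : G} (hc : c ∈ 𝐍(K)) (e : c * z = z * c) : c ∈ 𝐍(Q) := by
  have m := norm_c1 hc e
  refine mem_normalizer_of_cj_le (h.core (isPGroup_cj c h.ex.isPGroup) (cj_le_of_mem_normalizer m h.QC) ?_)
  rw [← cj_normalizer, ← cj_eq_self m]
  exact cj_mono c fun x hx => (h.ac hx).1

theorem cenK {x : G} (hx : x ∈ K) (c : x ∈ 𝐂(Q)) : x = 1 ∨ x = z := by
  have m : x ∈ C0 := ⟨hx, mem_c1.2 (c _ h.ex.mem).symm⟩
  refine h.ex.ctr x (h.kr m (h.ph_eq ⟨(h.ac m).1, fun e he => ?_⟩)) c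
  rw [mul_assoc, c e he, inv_mul_cancel_left, ν_one, vm_mo (by norm_num) (h.co.lt e he)]

theorem ni : n⁻¹ = n := h.gi (by omega)

theorem cjn {i j : ℕ} (e : bv [31, 2 * i + 1, 31] = bv [2 * j + 1]) : n * g i * n⁻¹ = g j := by
  have := h.same e
  rw [ev_single, ev_cons, ev_cons, evL_odd, show evL g 31 = n from evL_odd g 15, show ev g [31] = n from ev_single g 15] at this
  rw [h.ni, mul_assoc, this]

theorem nt : n * z * n⁻¹ = g 4 := h.cjn (by decide +kernel)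

theorem nt' : n * g 4 * n⁻¹ = z := h.cjn (by decide +kernel)

theorem nα {j : ℕ} (hj : j < 3) : n * g (7 - j) * n⁻¹ = g (j + 9) := h.cjn (by revert j; decide +kernel)

theorem nα' {j : ℕ} (hj : j < 3) : n * g (j + 9) * n⁻¹ = g (7 - j) := h.cjn (by revert j; decide +kernel)

theorem nf {i : ℕ} (hi : i < 3) : n * g (i + 1) * n⁻¹ = g (i + 1) := h.cjn (by revert i; decide +kernel)

theorem lemN {c : G} (hc : c ∈ 𝐍(K)) (cz : c * z = z * c) (c4 : c * g 4 = g 4 * c) (c0 : c * g 0 = g 0 * c)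
    (p : ∀ i < 3, ∃ j < 3, c * g (j + 1) * c⁻¹ = g (i + 1)) : c * n = n * c ∨ z * c * n = n * (z * c) := by
  have tr : ∀ {u v w y : G}, n * u * n⁻¹ = w → n * v * n⁻¹ = y → c * u * c⁻¹ = v →
      n * c * n⁻¹ * w * (n * c * n⁻¹)⁻¹ = y := fun a b d => by rw [← a, ← b, ← d]; group
  have m := h.norQ (mul_mem (mul_mem (le_normalizer (h.mem 15)) hc) (inv_mem (le_normalizer (h.mem 15))))
    (conj_eq_iff.1 (tr h.nt' h.nt' (conj_eq_iff.2 c4)))
  obtain ⟨d, hd, e⟩ := h.el_surj' (norm_mem' m (h.fq 0 (by omega)).1)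
  obtain ⟨b, eb⟩ : ∃ b, n * g 0 * n⁻¹ = b := ⟨_, rfl⟩
  have wb : ev g [31, 1, 31] = b := by
    rw [← eb, h.ni, mul_assoc, ev_cons, ev_cons, show evL g 31 = n from evL_odd g 15, show evL g 1 = g 0 from evL_odd g 0,
      show ev g [31] = n from ev_single g 15]
  have nb : n * b * n⁻¹ = g 0 := by
    rw [← eb, h.ni, ← mul_assoc, ← mul_assoc, h.gg (by omega), one_mul, mul_assoc, h.gg (by omega), mul_one]
  have key : ∀ {x}, x * g 0 = g 0 * x → x * b * x⁻¹ = b → x * n = n * x := fun {x} a k => by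
    have : n = g 0 * b * g 0 := by
      rw [← wb, ← ev_single g 15, h.same (w := 1 :: [31, 1, 31] ++ [1]) (by decide +kernel), List.cons_append, ev_cons,
        ev_append, ← mul_assoc, show evL g 1 = g 0 from evL_odd g 0, show ev g [1] = g 0 from ev_single g 0]
    rw [this]
    exact ((show Commute x (g 0) from a).mul_right (conj_eq_iff.1 k)).mul_right a
  have b3 := h.same (u := wpow ([31, 1, 31] ++ [1]) 3) (w := []) (by decide +kernel)
  rw [ev_wpow, ev_append, wb, show ev g [1] = g 0 from ev_single g 0, ev_nil] at b3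
  have c' : c * b * c⁻¹ = n * E d * n⁻¹ := by
    rw [← e, ← nb]
    simp only [mul_inv_rev, inv_inv, h.ni, ← mul_assoc, h.gg (show 15 < 16 by omega), one_mul]
    simp only [mul_assoc, h.gg (show 15 < 16 by omega), mul_one, ← mul_assoc n n, one_mul]
  rcases (by decide +kernel : ∀ c < 512, (∀ i < 3, bv ((2 * (i + 1) + 1) :: qw c) = bv (qw c ++ [2 * (i + 1) + 1])) →
      bv (wpow ([31, 1, 31] ++ qw c) 3) = bv [] → q8 (c % 256) = 0 → c = 2 ^ 0 ∨ c = qm (2 ^ 0) (1 <<< 8)) d hd (fun i hi => (h.orc _ _).1 (by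
        obtain ⟨j, hj, k⟩ := p i hi
        rw [ev_cons, ev_append, ev_single, evL_odd, ev_qw, ← e, ← tr (h.nf hj) (h.nf hi) k, conj_mul, conj_mul,
          h.gc (i := j + 1) (j := 0) (by clear k; revert j; decide +kernel)])) ((h.orc _ _).1 (by
        rw [ev_wpow, ev_append, wb, ev_qw, ← e, ← tr eb eb (conj_eq_iff.2 c0), conj_mul, conj_pow, b3, mul_one, mul_inv_cancel,
          ev_nil])) (zp_inj h.zz h.z_ne (ThR.q8_lt _) two_pos (by
        rw [← h.el_sq, ← e, conj_mul, h.gg (by omega), mul_one, mul_inv_cancel, pow_zero])) with rfl | rfl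
  · rw [el_pow g z (by omega), eb] at c'
    exact .inl (key c0 c')
  · rw [← h.el_mul, el_pow g z (by omega), el_shl, pow_one, ← conj_mul, eb, h.nt] at c'
    refine .inr (key ((show Commute z (g 0) from (mem_c1.1 (h.gz (by omega))).symm).mul_left c0) ?_)
    have := h.same (u := 17 :: [31, 1, 31] ++ [9, 17]) (w := [31, 1, 31]) (by decide +kernel)
    rw [List.cons_append, ev_cons, ev_append, wb, ev_cons, show evL g 17 = z from evL_odd g 8,
      show evL g 9 = g 4 from evL_odd g 4, show ev g [17] = z from ev_single g 8] at this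
    rw [show z * c * b * (z * c)⁻¹ = z * (c * b * c⁻¹) * z⁻¹ by group, c', h.gi (by omega)]
    simpa only [mul_assoc] using this

theorem y3 {j : ℕ} (hj : j < 3) : (g (j + 9) * g (j + 12)) ^ 3 = 1 := by
  have := h.same (u := wpow [2 * (j + 9) + 1, 2 * (j + 12) + 1] 3) (w := []) (by revert j; decide +kernel)
  simpa only [ev_wpow, ev_cons, ev_nil, evL_odd, mul_one] using this

theorem odd3 {y u : G} (y3 : y ^ 3 = 1) (u3 : u ^ 3 = 1) (hu : u ∈ 𝐂₁(z)) (e : y = u ∨ y = u * z) : y = u :=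
  e.resolve_right fun e => h.z_ne (by
    rwa [e, (show Commute u z from mem_c1.1 hu).mul_pow, u3, one_mul, pow_succ, sq, h.zz, one_mul] at y3)

theorem cenQ (cK : 𝐂(K) ≤ K) {c : G} (hc : c ∈ 𝐍(K)) (k : c ∈ 𝐂(Q)) : c = 1 ∨ c = z := by
  have key : ∀ {c}, c ∈ 𝐍(K) → c ∈ 𝐂(Q) → c * n = n * c → c = 1 ∨ c = z := fun {c} hc k e => by
    have a : ∀ j < 3, c * g (j + 9) = g (j + 9) * c := fun j hj => by
      rw [← h.nα hj]
      exact ((show Commute c n from e).mul_right (k _ (g_mem (by omega))).symm).mul_right (show Commute c n from e).inv_right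
    refine h.cenK (cK fun x hx => mem_c1.1 (h.gen 𝐂₁(c) (fun i hi => mem_c1.2 ?_) hx)) k
    rcases (by decide : ∀ i < 16, i < 9 ∨ (∃ j < 3, i = j + 9) ∨ (∃ j < 3, i = j + 12) ∨ i = 15) i hi with l | ⟨j, hj, rfl⟩ | ⟨j, hj, rfl⟩ | rfl
    · exact k _ (g_mem l)
    · exact (a j hj).symm
    · have m := mul_mem (h.gC (i := j + 9) (by omega)) (h.gC (i := j + 12) (by omega))
      have := h.odd3 (y := c * _ * c⁻¹) (by rw [conj_pow, h.y3 hj]; group) (h.y3 hj) m.2 ((h.cenK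
        (K.mul_mem (K.inv_mem m.1) (norm_mem' hc m.1)) fun x hx => by
          have := k _ (norm_mem' (h.ac m).1 hx)
          generalize g (j + 9) * g (j + 12) = y at *
          calc _ = y⁻¹ * (y * x * y⁻¹ * c) * y * c⁻¹ := by group
            _ = y⁻¹ * c * y * (x * c⁻¹) := by rw [this]; group
            _ = _ := by rw [inv_mem k x hx]; group).imp (fun e => (inv_mul_eq_one.1 e).symm) inv_mul_eq_iff_eq_mul.1)
      rw [conj_eq_iff, ← mul_assoc, a j hj, mul_assoc, mul_assoc] at this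
      exact (mul_left_cancel this).symm
    · exact e.symm
  have zK : z ∈ 𝐍(K) := le_normalizer (h.mem 8)
  refine (h.lemN hc (k _ h.ex.mem).symm (k _ (g_mem (by omega))).symm (k _ (g_mem (by omega))).symm fun i hi =>
    ⟨i, hi, conj_eq_iff.2 (k _ (g_mem (by omega))).symm⟩).elim (key hc k) fun e => ?_
  exact (key (mul_mem zK hc) (mul_mem h.ex.cent k) e).symm.imp (fun e => by simpa using e) fun e => by
    rw [← inv_eq_of_mul_eq_one_right e, h.gi (by omega)]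

end Md

end CF.P83
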