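import Cfsg.Agent.P83.Q2
import Cfsg.Agent.Loc.SPE

/-! The extraspecial subgroup is large. -/

set_option autoImplicit false
set_option maxRecDepth 1000000
set_option synthInstance.maxSize 2000
set_option linter.unusedSectionVars false

namespace CF.P83
open Cfsg Subgroup CF.Loc CF.Even CF.LX CF.J4 CF.Comp CF.Dce CF.LX4 CF.MonU Equiv Equiv.Perm
open CF.ThR (q8 b8 el qm apq el_pow el_shl el_zero conj_chi norm_c1)

variable {G : Type*} [Group G]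

/-- the setting -/
structure Cx (K : Subgroup G) (g : ℕ → G) (S : Subgroup G) : Prop extends Md K g where
  fr : ThR.Fr (QQ g) (g 8) (cod g)
  cK : 𝐂(K) ≤ K
  syl : IsSyl 2 S ⊤
  SN : S ≤ 𝐍(K)
  Sz : S ≤ 𝐂₁(g 8)
  SK : ∀ x ∈ K ⊓ 𝐂₁(g 8), (x ∈ S ↔ ph g x ∈ TL3)

variable [Finite G] {K S : Subgroup G} {g : ℕ → G}

local notation "z" => g 8
local notation "n" => g 15
local notation "E" => el g (g 8)
local notation "Q" => QQ g
local notation "π" => cod g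
local notation "Φ" => ph g
local notation "C0" => K ⊓ 𝐂₁(g 8)

theorem span_ws {B : ℕ → Prop} (b0 : B 0) (bx : ∀ a < 256, ∀ b < 256, B a → B b → B (a ^^^ b))
    (k : ∀ γ, B (vm 8 16 (ν γ))) : ∀ c < 256, B c := xor_ind (P := B) (show B 0 from b0) (fun s (hs : s < 8) =>
  (by decide +kernel : ∀ s < 8, vm 8 16 (ν (ws s)) = 2 ^ s) s hs ▸ k _) bx

namespace Md
variable (h : Md K g)
include h

theorem triv {r : G} (hr : r ∈ 𝐍(Q)) (k : ∀ x ∈ C0, x * r * x⁻¹ * r⁻¹ ∈ Q) :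
    ∀ y ∈ Q, r * y * r⁻¹ * y⁻¹ ∈ zpowers z := by
  have nz := h.nz (h.ex.norm_le hr)
  obtain ⟨M, -, a⟩ := h.co.ex hr nz
  have p : 0 < 8 := by norm_num
  have c : ∀ γ, ∀ c < 256, vm 8 (vm 8 c (ν γ)) M = vm 8 (vm 8 c M) (ν γ) := fun γ c hc => by
    obtain ⟨x, hx, rfl⟩ := h.sur γ
    have := h.co.uniq (h.co.cd.mul' (h.ac hx) a) (by
      rw [show x * r = x * r * x⁻¹ * r⁻¹ * (r * x) by group]
      exact h.co.cd.mul' (h.co.ac_self (k x hx)) (h.co.cd.mul' a (h.ac hx))) hc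
    rwa [vm_mm p, vm_mm p, vm_mm p, vm_mo p hc] at this
  have f : vm 8 16 M = 16 := (by decide +kernel : ∀ c < 256, c ≠ 0 → (∀ τ ∈ TL3, vm 8 c (ν τ) = c) → c = 16) _ (vm_lt _ _ _)
    (fun e => absurd (h.co.inj a nz (a := 16) (b := 0) (by norm_num) (by norm_num) (by rw [e, vm_zero])) (by norm_num))
    fun τ hτ => by rw [← c τ 16 (by norm_num), (by decide +kernel : ∀ τ ∈ TL3, vm 8 16 (ν τ) = 16) τ hτ]
  have t := span_ws (B := fun c => vm 8 c M = c) (vm_zero _ _) (fun a _ b _ e e' => by rw [vm_xor, e, e'])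
    fun γ => by rw [c γ 16 (by norm_num), f]
  intro y hy
  have m := norm_mem' hr (inv_mem hy)
  have := a.2 _ m
  rw [t _ (h.co.lt _ m), show r⁻¹ * (r * y⁻¹ * r⁻¹) * r = y⁻¹ by group, eq_comm, h.co.eq_iff m (inv_mem hy)] at this
  simpa only [mul_inv_rev, inv_inv, mul_assoc] using this

theorem irr {R : Subgroup G} (l : R ≤ Q) (hz : z ∈ R) (m : C0 ≤ 𝐍(R)) (ne : ¬ R ≤ zpowers z) : Q ≤ R := by
  obtain ⟨B, hB⟩ : ∃ B : ℕ → Prop, ∀ c, B c ↔ ∃ x ∈ R, π x = c := ⟨_, fun _ => Iff.rfl⟩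
  have bx : ∀ {a b}, B a → B b → B (a ^^^ b) := fun a b => by
    obtain ⟨x, hx, rfl⟩ := (hB _).1 a
    obtain ⟨y, hy, rfl⟩ := (hB _).1 b
    exact (hB _).2 ⟨_, mul_mem hx hy, h.co.mul _ (l hx) _ (l hy)⟩
  have bν : ∀ γ {a}, B a → B (vm 8 a (ν γ)) := fun γ a k => by
    obtain ⟨x, hx, rfl⟩ := (hB _).1 k
    obtain ⟨y, hy, rfl⟩ := h.sur γ
    exact (hB _).2 ⟨_, norm_mem (m hy) hx, (h.ac hy).2 _ (l hx)⟩
  obtain ⟨x, hx, n0⟩ := not_forall₂.1 ne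
  obtain ⟨j, -, e⟩ := ((by decide +kernel : ∀ v < 256, v = 0 ∨ ∃ j < 8, (force (vm 8 v (ν (pv (swap 0 2) j))) fun a =>
      force (a ^^^ vm 8 a (ν (sv 1))) fun b => force (b ^^^ vm 8 b (ν (sv 2))) fun d => d ^^^ vm 8 d (ν (sv 4))) = 16)
      _ (h.co.lt x (l hx))).resolve_left (mt (h.co.ker x (l hx)).1 n0)
  simp only [force_eq] at e
  have s : ∀ γ {a}, B a → B (a ^^^ vm 8 a (ν γ)) := fun γ a k => bx k (bν γ k)
  have b16 : B 16 := e ▸ s _ (s _ (s _ (bν _ ((hB _).2 ⟨x, hx, rfl⟩))))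
  intro y hy
  obtain ⟨u, hu, e⟩ := (hB _).1 (span_ws ((hB _).2 ⟨1, one_mem _, h.co.one⟩) (fun _ _ _ _ => bx) (fun γ => bν γ b16) _
    (h.co.lt y hy))
  exact (mul_mem_cancel_left (inv_mem hu)).1 (zpowers_le.2 hz ((h.co.eq_iff (l hu) hy).1 e))

theorem exists_cx (cK : 𝐂(K) ≤ K) (hG : IsOfParabolicCharacteristic 2 G) (hi : ¬ 2 ∣ (𝐍(K)).index) :
    ∃ S, Cx K g S := by
  have p0 : IsPGroup 2 (h.hom.pre 𝐂₁(sv 7)) := isPGroup_iff_forall.2 fun x hx => by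
    obtain ⟨a, b⟩ := h.hom.mem_pre.1 hx
    obtain ⟨k, e⟩ := isPGroup_iff_forall.1 h.ex.isPGroup _ (h.kr (pow_mem a 2) (by
      rw [h.hom.pow a]; exact (by decide +kernel : ∀ x ∈ TL3, x ^ 2 = 1) _ ((mem_TL3 _).2 (mem_c1.1 b))))
    exact ⟨k + 1, by rw [pow_succ', pow_mul, e]⟩
  obtain ⟨S, hS, l⟩ := exists_isSyl_ge p0 (L := 𝐍(K)) fun x hx => le_normalizer (h.hom.mem_pre.1 hx).1.1
  have syl := hS.trans_of_not_dvd le_top (by rwa [relIndex_top_right])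
  have a : ∀ x ∈ C0, Φ x ∈ TL3 → x ∈ S := fun x hx e => l (h.hom.mem_pre.2 ⟨hx, mem_c1.2 ((mem_TL3 _).1 e)⟩)
  have QS : Q ≤ S ⊓ K := fun x hx => ⟨a x (h.QC hx) (by rw [h.ΦQ hx]; decide), h.QK hx⟩
  have zc : z ∈ 𝐂(S ⊓ K) := by
    obtain ⟨x, hx, h1⟩ := ((S ⊓ K) ⊓ 𝐂(S ⊓ K)).bot_or_exists_ne_one.resolve_left
      (center_ne_bot hS.isPGroup.to_inf_left fun e => h.z_ne (mem_bot.1 (e ▸ QS h.ex.mem)))
    exact ((h.cenK hx.1.2 (centralizer_anti QS hx.2)).resolve_left h1) ▸ hx.2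
  have Sz : S ≤ 𝐂₁(z) := fun s hs => mem_c1.2 (conj_eq_iff.1 ((h.cenK (norm_mem' (hS.le hs) (h.mem 8)) (centralizer_anti QS
    (norm_mem' (le_normalizer_centralizer (le_normalizer_inf le_normalizer hS.le) hs) zc))).resolve_left
      (by simpa using h.z_ne)))
  have ch := (parabolic_iff_centralizer syl).1 hG z (mem_omegaOneCenter.2 ⟨(QS h.ex.mem).1, fun x hx => mem_c1.1 (Sz hx),
    by rw [sq, h.zz]⟩) h.z_ne
  have RS : 𝐎[2](𝐂₁(z)) ≤ S := (syl.mono Sz le_top).pCoreOf_le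
  have nR := le_normalizer_pCoreOf 2 𝐂₁(z)
  have p2 := isPGroup_pCoreOf 2 𝐂₁(z)
  rw [IsCharP] at ch
  generalize 𝐎[2](𝐂₁(z)) = R at *
  have RK := h.core (R := R ⊓ K) p2.to_inf_left (le_inf inf_le_right (inf_le_left.trans (RS.trans Sz)))
    (le_normalizer_inf (inf_le_right.trans nR) (inf_le_left.trans le_normalizer))
  have RQ : R ≤ Q := fun r hr => by
    have m := hS.le (RS hr)
    have m' := h.norQ m (mem_c1.1 (Sz (RS hr)))
    obtain ⟨q, hq, e⟩ := h.ex.inner m' (h.triv m' fun x hx => RK ⟨R.mul_mem (norm_mem' (nR hx.2) hr) (R.inv_mem hr), by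
      rw [mul_assoc, mul_assoc, ← mul_assoc r]; exact K.mul_mem hx.1 (norm_mem' m (K.inv_mem hx.1))⟩)
    refine (mul_mem_cancel_left (inv_mem hq)).1 ?_
    rcases h.cenQ cK (mul_mem (inv_mem (le_normalizer (h.QK hq))) m) e with e | e <;> rw [e]
    exacts [one_mem _, h.ex.mem]
  have e : R = Q := le_antisymm RQ (h.irr RQ (ch ⟨mem_c1.2 rfl, centralizer_anti RQ h.ex.cent⟩) (inf_le_right.trans nR)
    fun k => h.ex.nab fun x hx => k (ch ⟨h.Qz hx, centralizer_anti k (by rw [centralizer_zpowers]; exact h.Qz hx)⟩))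
  subst e
  refine ⟨S, h, ⟨⟨h.ex, fun x hx => ch ⟨mem_c1.2 (hx _ h.ex.mem).symm, hx⟩, nR⟩, h.co, h.sq'⟩, cK, syl, hS.le, Sz,
    fun x hx => ⟨fun k => ?_, a x hx⟩⟩
  obtain ⟨y, hy, e⟩ := h.sur (sv 7)
  have := h.sq_Φ hS.isPGroup (mul_mem k (a y hy (by rw [e]; decide))) (mul_mem hx hy)
  rw [h.hom _ hx _ hy, e] at this
  exact (by decide +kernel : ∀ γ : Γ3, γ ^ 2 = 1 → (γ * sv 7) ^ 2 = 1 → γ ∈ TL3) _ (h.sq_Φ hS.isPGroup k hx) this

end Md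

end CF.P83
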