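import Cfsg.Agent.P83.Q3

/-! The action of the Sylow subgroup. -/

set_option autoImplicit false
set_option maxRecDepth 1000000
set_option synthInstance.maxSize 20000
set_option linter.unusedSectionVars false

namespace CF.P83
open Cfsg Subgroup CF.Loc CF.Even CF.LX CF.J4 CF.Comp CF.Dce CF.LX4 CF.MonU Equiv Equiv.Perm
open CF.ThR (q8 b8 el qm apq el_pow el_shl el_zero conj_chi norm_c1)

/-- the stabiliser of the highest vector in the group of the pure tensors -/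
def LT : List ℕ := [0x8040201008040201, 0x8042241018040281, 0x8240281008140241, 0x82423c10181402c3, 0x8448201008041221,
  0x845a2410180412a5, 0x9648281008141269, 0x965a3c10181412ff, 0x8020401008020401, 0x8024421018020481, 0x8420481008120421,
  0x84245a10181204a5, 0x8228401008021441, 0x823c4210180214c3, 0x9628481008121469, 0x963c5a10181214ff, 0x2040801002040801,
  0x2048841012040821, 0x2840821002140841, 0x2848961012140869, 0x2442801002041881, 0x245a8410120418a5, 0x3c428210021418c3,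
  0x3c5a9610121418ff, 0x4080201004080201, 0x4082281014080241, 0x4280241004180281, 0x42823c10141802c3, 0x4884201004081221,
  0x4896281014081269, 0x5a842410041812a5, 0x5a963c10141812ff, 0x4020801004020801, 0x4028821014020841, 0x4820841004120821,
  0x4828961014120869, 0x4224801004021881, 0x423c8210140218c3, 0x5a248410041218a5, 0x5a3c9610141218ff, 0x2080401002080401,
  0x2084481012080421, 0x2480421002180481, 0x24845a10121804a5, 0x2882401002081441, 0x2896481012081469, 0x3c824210021814c3,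
  0x3c965a10121814ff]

/-- its elements -/
noncomputable def lm (i : ℕ) : ℕ := nth 0 LT i

/-- a Sylow subgroup -/
def Lam (k : ℕ) : List ℕ := LT.take 8 ++ (LT.drop (8 * k + 8)).take 8

/-- the pure tensors -/
def PL : List ℕ := [1, 2, 4, 8, 16, 18, 20, 24, 32, 33, 36, 40, 60, 64, 65, 66, 72, 90, 105, 128, 129, 130, 132, 150, 165,
  195, 255]

/-- compatible images -/
def Rp (i j a b : ℕ) : Prop := pu (a ^^^ b) = pu (2 ^ i ^^^ 2 ^ j) ∧ a ≠ b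

instance (i j a b : ℕ) : Decidable (Rp i j a b) := by unfold Rp; infer_instance

theorem segre : ∀ a ∈ PL, Rp 1 4 a 16 → ∀ b ∈ PL, Rp 2 4 b 16 ∧ Rp 2 1 b a →
    ∀ c ∈ PL, Rp 3 4 c 16 ∧ Rp 3 1 c a ∧ Rp 3 2 c b → ∀ d ∈ PL, Rp 5 4 d 16 ∧ Rp 5 1 d a ∧ Rp 5 2 d b ∧ Rp 5 3 d c →
    ∀ e ∈ PL, Rp 6 4 e 16 ∧ Rp 6 1 e a ∧ Rp 6 2 e b ∧ Rp 6 3 e c ∧ Rp 6 5 e d →
    ∀ f ∈ PL, Rp 7 4 f 16 ∧ Rp 7 1 f a ∧ Rp 7 2 f b ∧ Rp 7 3 f c ∧ Rp 7 5 f d ∧ Rp 7 6 f e →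
    ∀ o ∈ PL, Rp 0 4 o 16 ∧ Rp 0 1 o a ∧ Rp 0 2 o b ∧ Rp 0 3 o c ∧ Rp 0 5 o d ∧ Rp 0 6 o e ∧ Rp 0 7 o f →
    ∃ i < 48, ∀ j < 8, fld 8 (lm i) j = [o, a, b, c, 16, d, e, f].getD j 0 := by decide +kernel

theorem lm_lt {i : ℕ} (hi : i < 48) : lm i < 2 ^ (8 * 8) := by revert i; decide +kernel

variable {G : Type*} [Group G] [Finite G] {K S : Subgroup G} {g : ℕ → G}

local notation "z" => g 8
local notation "n" => g 15
local notation "E" => el g (g 8)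
local notation "Q" => QQ g
local notation "π" => cod g
local notation "Φ" => ph g
local notation "C0" => K ⊓ 𝐂₁(g 8)
local notation "H" => 𝐂₁(g 8)
local notation "Ac" => J4.Ac 8 (QQ g) (cod g)

namespace Cx
variable (h : Cx K g S)
include h

theorem lq : LQ Q z := h.fr.toLQ

theorem ex_ac {x : G} (hx : x ∈ H) : ∃ M < 2 ^ (8 * 8), Ac x M := h.co.ex (h.fr.nor hx) (h.nz hx)

theorem acH {x : G} {M : ℕ} (a : Ac x M) : x ∈ H := h.ex.norm_le a.1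

theorem mem_of_ac {x : G} (a : Ac x (mo 8)) : x ∈ Q := inv_mem_iff.1 (h.lq.mem_of_comm (mem_c1.1 (inv_mem (h.acH a)))
  fun y hy => by
    have m := norm_mem a.1 hy
    have := (h.co.eq_iff hy m).1 (by rw [a.2 y hy, vm_mo (by norm_num) (h.co.lt y hy)])
    rw [inv_inv, show x⁻¹ * y * x * y⁻¹ = y * (y⁻¹ * (x⁻¹ * y * x)) * y⁻¹ by group, h.ex.conj_mem hy this]
    exact this)

theorem div {x y : G} {M : ℕ} (a : Ac x M) (b : Ac y M) : x⁻¹ * y ∈ Q := h.mem_of_ac (h.co.ac_div a b)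

theorem mul {x y : G} {M N : ℕ} (a : Ac x M) (b : Ac y N) : Ac (x * y) (mm 8 M N) := h.co.cd.mul' a b

theorem move {x y k : G} {M : ℕ} (hx : x ∈ Q) (hy : y ∈ Q) (a : Ac k M) (e : vm 8 (π x) M = π y) (n0 : π y ≠ 0) :
    ∃ u ∈ Q, (k * u)⁻¹ * x * (k * u) = y := by
  have m := norm_mem a.1 hx
  rcases h.fr.eq_or hy m (by rw [a.2 x hx, e]) with l | l
  · exact ⟨1, one_mem _, by rwa [mul_one]⟩
  · obtain ⟨u, hu, e⟩ := h.ex.exists_conj' hy (fun e => n0 (e ▸ h.co.one)) fun e => n0 (e ▸ h.fr.pz)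
    refine ⟨u, hu, ?_⟩
    rw [show (k * u)⁻¹ * x * (k * u) = u⁻¹ * (k⁻¹ * x * k) * u by group, l, h.ex.zc hy, ← e]; group

theorem QS : Q ≤ S := fun x hx => (h.SK x (h.QC hx)).2 (by rw [h.ΦQ hx]; decide)

theorem comm {s x : G} {M : ℕ} (hs : s ∈ S) (a : Ac s M) (hx : x ∈ C0) {c : ℕ} (hc : c < 256) :
    s * x * s⁻¹ ∈ C0 ∧ vm 8 (vm 8 c M) (ν (Φ x)) = vm 8 (vm 8 c (ν (Φ (s * x * s⁻¹)))) M := by
  have m := norm_mem' (norm_c1 (h.SN hs) (mem_c1.1 (h.Sz hs))) hx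
  have := h.co.uniq (h.mul a (h.ac hx)) (by rw [show s * x = s * x * s⁻¹ * s by group]; exact h.mul (h.ac m) a) hc
  rw [vm_mm (by norm_num), vm_mm (by norm_num)] at this
  exact ⟨m, this⟩

theorem fix16 {s : G} {M : ℕ} (hs : s ∈ S) (a : Ac s M) : vm 8 16 M = 16 :=
  (by decide +kernel : ∀ c < 256, c ≠ 0 → (∀ τ ∈ TL3, vm 8 c (ν τ) = c) → c = 16) _ (vm_lt _ _ _)
    (fun e => absurd (h.co.inj a (h.nz (h.Sz hs)) (b := 0) (show 16 < 2 ^ 8 by norm_num) (by norm_num) (by rw [e, vm_zero]))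
      (by norm_num)) fun τ hτ => by
    obtain ⟨x, hx, rfl⟩ := h.sur τ
    obtain ⟨m, e⟩ := h.comm hs a hx (c := 16) (by norm_num)
    rw [e, (by decide +kernel : ∀ τ ∈ TL3, vm 8 16 (ν τ) = 16) _ ((h.SK _ m).1
      (mul_mem (mul_mem hs ((h.SK x hx).2 hτ)) (inv_mem hs)))]

theorem pure {s : G} {M : ℕ} (hs : s ∈ S) (a : Ac s M) {c : ℕ} (hc : c < 256) : pu (vm 8 c M) = pu c := by
  have k : ∀ {s M c}, s ∈ S → Ac s M → c < 256 → pu c = true → pu (vm 8 c M) = true := fun {s M c} hs a hc u => by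
    obtain ⟨γ, rfl⟩ := (by decide +kernel : ∀ c < 256, pu c = true → ∃ γ, vm 8 16 (ν γ) = c) _ hc u
    obtain ⟨x, hx, rfl⟩ := h.sur γ
    have := (h.comm hs a (norm_mem (norm_c1 (h.SN hs) (mem_c1.1 (h.Sz hs))) hx) (c := 16) (by norm_num)).2
    rw [show s * (s⁻¹ * x * s) * s⁻¹ = x by group, h.fix16 hs a] at this
    exact this ▸ (by decide +kernel : ∀ γ, pu (vm 8 16 (ν γ)) = true) _
  obtain ⟨N, -, b⟩ := h.ex_ac (inv_mem (h.Sz hs))
  refine Bool.eq_iff_iff.2 ⟨fun u => ?_, k hs a hc⟩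
  have := k (inv_mem hs) b (vm_lt _ _ _) u
  rwa [← vm_mm (by norm_num), h.co.uniq (h.mul a b) (by rw [mul_inv_cancel]; exact h.co.cd.one') hc,
    vm_mo (by norm_num) hc] at this

theorem ac48 {s : G} (hs : s ∈ S) : ∃ i < 48, Ac s (lm i) := by
  obtain ⟨M, -, a⟩ := h.ex_ac (h.Sz hs)
  have p := fun i (hi : i < 8) => Nat.pow_lt_pow_right one_lt_two hi
  have m : ∀ i < 8, vm 8 (2 ^ i) M ∈ PL := fun i hi => (by decide +kernel : ∀ c < 256, pu c = true → c ∈ PL) _ (vm_lt _ _ _)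
    (by rw [h.pure hs a (p i hi)]; revert i; decide +kernel)
  have r : ∀ i j, i < 8 ∧ j < 8 ∧ i ≠ j → Rp i j (vm 8 (2 ^ i) M) (vm 8 (2 ^ j) M) := fun i j k =>
    ⟨by rw [← vm_xor, h.pure hs a (Nat.xor_lt_two_pow (p i k.1) (p j k.2.1))], fun e =>
      k.2.2 (Nat.pow_right_injective le_rfl (h.co.inj a (h.nz (h.Sz hs)) (p i k.1) (p j k.2.1) e))⟩
  have f : vm 8 (2 ^ 4) M = 16 := h.fix16 hs a
  have r4 : ∀ i, i < 8 ∧ 4 < 8 ∧ i ≠ 4 → Rp i 4 (vm 8 (2 ^ i) M) 16 := fun i k => f ▸ r i 4 k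
  obtain ⟨i, hi, e⟩ := segre _ (m 1 (by omega)) (r4 1 (by omega)) _ (m 2 (by omega)) ⟨r4 2 (by omega), r 2 1 (by omega)⟩
    _ (m 3 (by omega)) ⟨r4 3 (by omega), r 3 1 (by omega), r 3 2 (by omega)⟩
    _ (m 5 (by omega)) ⟨r4 5 (by omega), r 5 1 (by omega), r 5 2 (by omega), r 5 3 (by omega)⟩
    _ (m 6 (by omega)) ⟨r4 6 (by omega), r 6 1 (by omega), r 6 2 (by omega), r 6 3 (by omega), r 6 5 (by omega)⟩
    _ (m 7 (by omega)) ⟨r4 7 (by omega), r 7 1 (by omega), r 7 2 (by omega), r 7 3 (by omega), r 7 5 (by omega),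
      r 7 6 (by omega)⟩
    _ (m 0 (by omega)) ⟨r4 0 (by omega), r 0 1 (by omega), r 0 2 (by omega), r 0 3 (by omega), r 0 5 (by omega),
      r 0 6 (by omega), r 0 7 (by omega)⟩
  refine ⟨i, hi, h.co.congr a fun c _ => vm_congr (fun _ _ => rfl) fun j hj => ?_⟩
  rw [e j hj, ← vm_pow hj, ← f]
  interval_cases j <;> rfl

theorem ac32 {s : G} (hs : s ∈ S) : ∃ i < 32, Ac s (lm i) := by
  obtain ⟨i, hi, a⟩ := h.ac48 hs
  refine ⟨i, lt_of_not_ge fun l => ?_, a⟩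
  obtain ⟨k, e⟩ := isPGroup_iff_forall.1 h.syl.isPGroup s hs
  have : ∀ k, ∃ i < 48, 32 ≤ i ∧ Ac (s ^ 2 ^ k) (lm i) := fun k => by
    induction k with
    | zero => exact ⟨i, hi, l, by simpa using a⟩
    | succ k ih =>
      obtain ⟨i, hi, l, a⟩ := ih
      obtain ⟨j, hj, l', e⟩ := (by decide +kernel : ∀ i < 48, 32 ≤ i → ∃ j < 48, 32 ≤ j ∧ mm 8 (lm i) (lm i) = lm j) i hi l
      exact ⟨j, hj, l', by rw [pow_succ, pow_mul, sq, ← e]; exact h.mul a a⟩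
  obtain ⟨j, hj, l, a⟩ := this k
  rw [e] at a
  exact (by decide +kernel : ∀ i < 48, 32 ≤ i → lm i ≠ mo 8) j hj l
    (h.co.uniq' a h.co.cd.one' (lm_lt hj) (mo_lt (by norm_num)))

theorem lam : ∃ k < 3, ∀ s ∈ S, ∃ M ∈ Lam k, Ac s M := by
  by_cases c : ∀ s ∈ S, ∃ i < 8, Ac s (lm i)
  · exact ⟨0, by omega, fun s hs => by
      obtain ⟨i, hi, a⟩ := c s hs
      exact ⟨_, (by decide +kernel : ∀ i < 8, lm i ∈ Lam 0) i hi, a⟩⟩
  push Not at c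
  obtain ⟨t, ht, c⟩ := c
  obtain ⟨j, hj, b⟩ := h.ac32 ht
  have l : 8 ≤ j := le_of_not_gt fun l => c j l b
  refine ⟨j / 8 - 1, by omega, fun s hs => ?_⟩
  obtain ⟨i, hi, a⟩ := h.ac32 hs
  obtain ⟨m, hm, d⟩ := h.ac32 (mul_mem hs ht)
  exact ⟨_, (by decide +kernel : ∀ j < 32, 8 ≤ j → ∀ i < 32, (∃ m < 32, mm 8 (lm i) (lm j) = lm m) → lm i ∈ Lam (j / 8 - 1))
    j hj l i hi ⟨m, hm, h.co.uniq' (h.mul a b) d (mm_lt (by norm_num) _ _) (lm_lt (by omega))⟩, a⟩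

theorem card_le {B : Subgroup G} {L : List ℕ} (k : ∀ b ∈ B, ∃ M ∈ L, Ac b M) :
    Nat.card B ≤ L.length * Nat.card ↥(B ⊓ Q) :=
  card_le_rel (r := fun b M => Ac b M) (fun _ _ _ _ _ a b => h.div a b) k

theorem card_S : Nat.card S ≤ 8192 := by
  obtain ⟨k, hk, e⟩ := h.lam
  have := h.card_le e
  rw [inf_eq_right.2 h.QS, h.card_Q, (by decide +kernel : ∀ k < 3, (Lam k).length = 16) k hk] at this
  exact this

theorem into {B : Subgroup G} (p : IsPGroup 2 B) (l : B ≤ H) : ∃ c ∈ H, cj[c] B ≤ S :=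
  (h.syl.mono h.Sz le_top).exists_cj_le p l

end Cx

end CF.P83
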