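import Cfsg.Agent.P83.S4

/-! Some involutions are not conjugate to the root involution. -/

set_option autoImplicit false
set_option maxRecDepth 1000000
set_option synthInstance.maxSize 20000
set_option linter.unusedSectionVars false

namespace CF.P83
open Cfsg Subgroup CF.Loc CF.Even CF.LX CF.J4 CF.Comp CF.Dce CF.LX4 CF.MonU Equiv Equiv.Perm
open CF.ThR (q8 b8 el qm apq el_pow el_shl el_zero conj_chi norm_c1)

/-- a commutator -/
noncomputable def cmw (u v : List ℕ) : List ℕ := u ++ v ++ winv u ++ winv v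

/-- a conjugate -/
noncomputable def cjw (u v : List ℕ) : List ℕ := u ++ v ++ winv u

/-- the data -/
def D5 : List (ℕ × List (List ℕ) × List (List ℕ) × List ℕ) :=
  [(6, [[], [1], [7], [1, 7], [11, 13], [21, 23], [1, 11, 13], [1, 21, 23], [7, 11, 13], [7, 21, 23], [21, 23, 1],
    [1, 7, 11, 13], [1, 7, 21, 23], [1, 21, 23, 1], [7, 21, 23, 1], [11, 13, 21, 23], [3]],
    [[31], [29, 27, 31], [31, 29, 27, 31]], [23, 29, 31]),
  (10, [[], [1], [5], [1, 5], [11, 15], [19, 23], [1, 11, 15], [1, 19, 23], [5, 11, 15], [5, 19, 23], [19, 23, 1],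
    [1, 5, 11, 15], [1, 5, 19, 23], [1, 19, 23, 1], [5, 19, 23, 1], [11, 15, 19, 23], [3]],
    [[31], [29, 25, 31], [31, 29, 25, 31]], [23, 29, 31]),
  (12, [[], [1], [3], [1, 3], [13, 15], [19, 21], [1, 13, 15], [1, 19, 21], [3, 13, 15], [3, 19, 21], [19, 21, 1],
    [1, 3, 13, 15], [1, 3, 19, 21], [1, 19, 21, 1], [3, 19, 21, 1], [13, 15, 19, 21], [5]],
    [[31], [27, 25, 31], [31, 27, 25, 31]], [21, 27, 31])]

theorem D5_ok : ∀ r ∈ [6, 10, 12], ∃ d ∈ D5, bv (qw r) ≠ bv [17] ∧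
    (∀ i < 17, (∀ x ∈ nth [] d.2.1 i, x ≤ 2 * 12) ∧ bv (nth [] d.2.1 i ++ qw r) = bv (qw r ++ nth [] d.2.1 i)) ∧
    (∀ k ∈ d.2.2.1, bv (k ++ qw r) = bv (qw r ++ k)) ∧
    (∀ j < 17, ∀ i < j, bv (winv (nth [] d.2.1 i) ++ nth [] d.2.1 j) = bv (cjw d.2.2.2 [17]) ∨ ∃ k ∈ d.2.2.1,
      bv (cmw (winv (nth [] d.2.1 i) ++ nth [] d.2.1 j) (cjw k [17])) ≠ bv [] ∧
      bv (cmw (winv (nth [] d.2.1 i) ++ nth [] d.2.1 j) (cjw k [17])) ≠ bv (qw r)) ∧
    bv (cmw (cjw (winv d.2.2.2) (qw r)) [1]) ≠ bv [] ∧ bv (cmw (cjw (winv d.2.2.2) (qw r)) [1]) ≠ bv [17] := by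
  decide +kernel

variable {G : Type*} [Group G]

theorem ev_cmw (g : ℕ → G) (u v : List ℕ) : ev g (cmw u v) = ev g u * ev g v * (ev g u)⁻¹ * (ev g v)⁻¹ := by
  rw [cmw, ev_append, ev_append, ev_append, ev_winv, ev_winv]

theorem ev_cjw (g : ℕ → G) (u v : List ℕ) : ev g (cjw u v) = ev g u * ev g v * (ev g u)⁻¹ := by
  rw [cjw, ev_append, ev_append, ev_winv]

theorem ev_le {g : ℕ → G} {L : Subgroup G} {m : ℕ} (h : ∀ i < m, g i ∈ L) {w : List ℕ} (k : ∀ x ∈ w, x ≤ 2 * m) :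
    ev g w ∈ L := by
  rw [ev_congr (g := fun i => if i < m then g i else 1) (fun i hi => (if_pos hi).symm) k]
  exact ev_mem (fun i => by
    split_ifs with l
    exacts [h i l, one_mem _]) _

theorem ev_z (g : ℕ → G) : ev g [17] = g 8 := ev_single g 8

variable [Finite G] {K S : Subgroup G} {g : ℕ → G}

local notation "z" => g 8
local notation "n" => g 15
local notation "E" => el g (g 8)
local notation "Q" => QQ g
local notation "π" => cod g
local notation "Φ" => ph g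
local notation "C0" => K ⊓ 𝐂₁(g 8)
local notation "H" => 𝐂₁(g 8)
local notation "Ac" => J4.Ac 8 (QQ g) (cod g)

namespace Cx
variable (h : Cx K g S)
include h

theorem c8 : 8 < Nat.card Q := by rw [h.card_Q]; norm_num

theorem gS (i : ℕ) (hi : i < 12) : g i ∈ S := by
  rcases lt_or_ge i 9 with l | l
  · exact h.QS (g_mem l)
  · obtain ⟨j, rfl⟩ := Nat.exists_eq_add_of_le' l
    refine (h.SK _ (h.gC (by omega))).2 ?_
    rw [h.Φα (by omega)]
    exact (by decide +kernel : ∀ j < 3, ga j ∈ TL3) j (by omega)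

theorem sym {a b : G} (e : a * z * a⁻¹ ∈ cj[b] Q) : b * z * b⁻¹ ∈ cj[a] Q := by
  rcases eq_or_ne (a * z * a⁻¹) (b * z * b⁻¹) with k | k
  · exact k ▸ conj_mem_cj a h.ex.mem
  · have := (h.lq.cj b).mem_cj (by rw [card_cj]; exact h.c8) (g := a * b⁻¹) (by simpa [mul_assoc] using k)
      (by simpa [mul_assoc] using e)
    rwa [← cj_mul, inv_mul_cancel_right] at this

theorem not_rep {r : ℕ} (hr : r ∈ [6, 10, 12]) : ¬ IsConj z (E r) := fun c => by
  obtain ⟨⟨_, xs, ks, ke⟩, -, k0, k1, k2, k3, k4, k5⟩ := D5_ok r hr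
  simp only [ne_eq, ← h.orc, ev_append, ev_cmw, ev_cjw, ev_qw, ev_winv, ev_z, ev_nil, inv_inv,
    show ev g [1] = g 0 from ev_single g 0] at k0 k1 k2 k3 k4 k5
  obtain ⟨a, e⟩ := isConj_iff.1 c
  have tQ := el_mem (g := g) r
  generalize E r = t at *
  have P := e ▸ h.lq.cj a
  have zP : z ∈ cj[a] Q := by simpa using h.sym (a := a) (b := 1) (by rwa [cj_one, e])
  obtain ⟨c, hc, l⟩ := h.into (B := cj[a⁻¹] (S ⊓ 𝐂₁(t))) (isPGroup_cj _ h.syl.isPGroup.to_inf_left) fun x hx => mem_c1.2 (by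
    have := mem_c1.1 (mem_cj.1 hx).2
    rw [← e, inv_inv] at this
    calc _ = a⁻¹ * (a * x * a⁻¹ * (a * z * a⁻¹)) * a := by group
      _ = _ := by rw [this]; group)
  have key : ∀ j < 17, ∀ i < j, (ev g (nth [] xs i))⁻¹ * ev g (nth [] xs j) ∉ cj[a] Q := fun j hj i hi m => by
    rcases k3 j hj i hi with k | ⟨k, hk, a1, a2⟩
    · have := mem_cj.1 (h.sym (k ▸ m))
      rw [e] at this
      exact (h.ex.mem_z.1 (h.ex.comm_mem this (g_mem (i := 0) (by omega)))).elim k4 k5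
    · exact (P.mem_z.1 (P.comm_mem m (norm_mem' (P.nor' (k2 k hk)) zP))).elim a1 a2
  have := card_cos h.QS (x := fun i => c * (a⁻¹ * ev g (nth [] xs i) * a⁻¹⁻¹) * c⁻¹) (fun i (hi : i < 17) =>
    l (conj_mem_cj c (conj_mem_cj _ ⟨ev_le h.gS (k1 i hi).1, mem_c1.2 (k1 i hi).2⟩))) fun i hi j hj m => by
      have m : (ev g (nth [] xs i))⁻¹ * ev g (nth [] xs j) ∈ cj[a] Q := mem_cj.2 (by
        have := norm_mem (h.fr.nor hc) m
        simpa only [mul_inv_rev, inv_inv, mul_assoc, inv_mul_cancel_left, mul_inv_cancel_left, inv_mul_cancel, mul_one]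
          using this)
      by_contra ne
      rcases Nat.lt_or_gt_of_ne ne with k | k
      exacts [key j hj i k m, key i hi j k (by simpa using inv_mem m)]
  have := h.card_S
  rw [h.card_Q] at *
  omega

theorem not18 {x : G} (hx : x ∈ Q) (k : ∃ r ∈ [6, 10, 12], ∃ γ, vm 8 r (ν γ) = π x ∧ r < 256 ∧ π x ≠ 0) :
    ¬ IsConj z x := fun c => by
  obtain ⟨r, hr, γ, e, l, n0⟩ := k
  obtain ⟨y, hy, rfl⟩ := h.sur γ
  obtain ⟨u, -, e⟩ := h.move (el_mem r) hx (h.ac hy) (by rwa [h.π_el, Nat.mod_eq_of_lt l]) n0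
  exact h.not_rep hr (c.trans (isConj_iff.2 ⟨y * u, by rw [← e]; group⟩))

end Cx

end CF.P83
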