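import Cfsg.Agent.P83.S5

/-! The conjugates of the root involution in the Sylow subgroup. -/

set_option autoImplicit false
set_option maxRecDepth 1000000
set_option synthInstance.maxSize 20000
set_option linter.unusedSectionVars false

namespace CF.P83
open Cfsg Subgroup CF.Loc CF.Even CF.LX CF.J4 CF.Comp CF.Dce CF.LX4 CF.MonU Equiv Equiv.Perm
open CF.ThR (q8 b8 el qm apq el_pow el_shl el_zero conj_chi norm_c1)

/-- the permutations of the generators -/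
noncomputable def sg (k i : ℕ) : ℕ := nth 0 (nth [] [[0, 2, 1, 3, 4, 6, 5, 7], [0, 3, 2, 1, 4, 7, 6, 5], [0, 1, 3, 2, 4, 5, 7, 6]] k) i

/-- the same, as automorphisms -/
noncomputable def PA (k : ℕ) : ℕ := nth 0 [0x400808010040080801, 0x101010010010101001, 0x202004010020200401] k

/-- the commutator spaces -/
noncomputable def L4 (k : ℕ) : List ℕ := nth [] [[0, 6, 96, 102], [0, 10, 160, 170], [0, 12, 192, 204]] k

theorem lam_a : ∀ k < 3, ∀ M ∈ Lam k, ∀ N ∈ Lam k, mm 8 M N ≠ mm 8 N M →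
    ((List.range 256).filter fun c => vm 8 c M = c ∧ vm 8 c N = c).length ≤ 4 := by decide +kernel

theorem lam_b : ∀ k < 3, ∀ c < 256, c ≠ 0 → c ≠ 16 → ((Lam k).filter fun M => vm 8 c M = c).length ≤ 8 ∧
    (((Lam k).filter fun M => vm 8 c M = c ∧ mm 8 M M = mo 8).length ≤ 7 ∨
      ∃ r ∈ [6, 10, 12], ∃ τ ∈ TL3, vm 8 r (ν τ) = c ∧ r < 256 ∧ c ≠ 0) := by decide +kernel

variable {G : Type*} [Group G] [Finite G] {K S : Subgroup G} {g : ℕ → G}

local notation "z" => g 8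
local notation "n" => g 15
local notation "E" => el g (g 8)
local notation "Q" => QQ g
local notation "π" => cod g
local notation "Φ" => ph g
local notation "C0" => K ⊓ 𝐂₁(g 8)
local notation "H" => 𝐂₁(g 8)
local notation "Ac" => J4.Ac 8 (QQ g) (cod g)

namespace Cx
variable (h : Cx K g S)
include h

theorem free {s r : G} {M : ℕ} (a : Ac s M) (ss : s * s = 1) (hr : r ∈ Q) (xx : s * r * (s * r) = 1)
    (f : ∀ c < 256, vm 8 c M = c → ∃ d < 256, vm 8 d M ^^^ c ^^^ d = 0) :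
    ∃ u ∈ Q, ∃ ε < 2, u * (s * r) * u⁻¹ = s * z ^ ε := by
  have si := inv_eq_of_mul_eq_one_right ss
  obtain ⟨d, hd, e⟩ := f _ (h.co.lt r hr) (by
    rw [← a.2 r hr, si, eq_inv_of_mul_eq_one_left (by rw [← xx]; group : s * r * s * r = 1), h.co.inv hr])
  obtain ⟨u, hu, rfl⟩ := h.co.surj d hd
  have m := norm_mem a.1 hu
  rw [← a.2 u hu, ← h.co.mul _ m _ hr, ← h.co.inv hu, ← h.co.mul _ (mul_mem m hr) _ (inv_mem hu),
    h.co.ker _ (mul_mem (mul_mem m hr) (inv_mem hu)), h.ex.mem_z] at e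
  refine ⟨u, hu, ?_⟩
  rw [show u * (s * r) * u⁻¹ = s * (s⁻¹ * u * s * r * u⁻¹) by group]
  exact e.elim (fun e => ⟨0, two_pos, by rw [e, pow_zero]⟩) fun e => ⟨1, one_lt_two, by rw [e, pow_one]⟩

theorem big {P D : Subgroup G} {y : G} (X : EX P y) (cP : Nat.card P = 2 ^ 9) (DP : D ≤ P) (DS : D ≤ S) (yD : y ∈ D)
    (yQ : y ∉ Q) (zD : z ∉ D) : Nat.card D < 64 := by
  by_contra! c
  obtain ⟨k, hk, lam⟩ := h.lam
  have fix : ∀ {d M e}, d ∈ D → Ac d M → e ∈ D ⊓ Q → vm 8 (π e) M = π e := fun {d M e} hd a he => by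
    rw [← a.2 e he.2]
    have := (X.conj_cases (DP (inv_mem hd)) (DP he.1)).resolve_right fun l => yQ (by
      have := mul_mem (norm_mem a.1 he.2) (inv_mem he.2)
      rwa [← inv_inv d, inv_inv d⁻¹, l, mul_inv_cancel_right] at this)
    rw [inv_inv] at this
    rw [this]
  have cnt : ∀ L : List ℕ, (∀ e ∈ D ⊓ Q, π e ∈ L) → Nat.card ↥(D ⊓ Q) ≤ L.length := fun L k => by
    simpa using card_le_rel (A := D ⊓ Q) (Z := ⊥) (r := fun e c => π e = c) (fun a ha b hb _ e e' => mem_bot.2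
      ((h.ex.mem_z.1 ((h.co.eq_iff ha.2 hb.2).1 (e.trans e'.symm))).resolve_right fun l =>
        zD (l ▸ D.mul_mem (D.inv_mem ha.1) hb.1))) fun e he => ⟨_, k e he, rfl⟩
  by_cases ex : ∃ e ∈ D ⊓ Q, π e ≠ 0 ∧ π e ≠ 16
  · obtain ⟨e, he, n0, n1⟩ := ex
    have a := h.card_le (B := D) (L := (Lam k).filter fun M => vm 8 (π e) M = π e) fun b hb => by
      obtain ⟨M, hM, a⟩ := lam b (DS hb)
      exact ⟨M, List.mem_filter.2 ⟨hM, decide_eq_true (fix hb a he)⟩, a⟩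
    have b := (lam_b k hk _ (h.co.lt e he.2) n0 n1).1
    obtain ⟨u, hu, v, hv, uv⟩ : ∃ u ∈ D, ∃ v ∈ D, v * u ≠ u * v := by
      by_contra! ab
      have l := card_le_of_le (le_inf DP fun x hx y hy => ab x hx y hy : D ≤ P ⊓ 𝐂(D))
      have := X.card_mul_card yD DP
      rw [cP] at this
      nlinarith
    obtain ⟨M, hM, au⟩ := lam _ (DS (inv_mem hu))
    obtain ⟨N, hN, av⟩ := lam _ (DS (inv_mem hv))
    have d := (cnt _ fun e he => List.mem_filter.2 ⟨List.mem_range.2 (h.co.lt e he.2),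
      decide_eq_true ⟨fix (inv_mem hu) au he, fix (inv_mem hv) av he⟩⟩).trans (lam_a k hk M hM N hN fun e => by
        have := h.div (h.mul au av) (e ▸ h.mul av au)
        rw [mul_inv_rev, inv_inv, inv_inv, ← mul_assoc] at this
        exact (X.mem_z.1 (X.comm_mem (DP hv) (DP hu))).elim
          (fun l => uv (by rwa [mul_inv_eq_one, mul_inv_eq_iff_eq_mul] at l)) fun l => yQ (l ▸ this))
    have := a.trans (Nat.mul_le_mul b d)
    omega
  · have a := h.card_le (B := D) fun b hb => lam b (DS hb)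
    have d := cnt [0, 16] fun e he => by
      by_contra l
      simp only [List.mem_cons, List.not_mem_nil, or_false, not_or] at l
      exact ex ⟨e, he, l⟩
    rw [(by decide +kernel : ∀ k < 3, (Lam k).length = 16) k hk] at a
    simp only [List.length_cons, List.length_nil] at d
    omega

theorem rank2 {w : G} {k : ℕ} (hk : k < 3) (a : Ac w (lm (8 * k + 8))) : ¬ IsConj z w := fun c => by
  obtain ⟨b, e⟩ := isConj_iff.1 c.symm
  have c64 := card_le_rel (A := Q) (Z := 𝐂₁(w)) (r := fun x c => x * (w⁻¹ * x⁻¹ * w) = E c)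
    (L := L4 k ++ (L4 k).map (· + 256)) (fun x _ y _ c e e' => mem_c1.2 (by
      have := mul_right_cancel ((mul_assoc _ _ _).trans (e.trans e'.symm) |>.trans (mul_assoc _ _ _).symm)
      calc _ = x⁻¹ * (y * (w⁻¹ * y⁻¹))⁻¹ * y := by group
        _ = _ := by rw [← this]; group)) fun x hx => by
      have m := norm_mem a.1 (inv_mem hx)
      obtain ⟨c, hc, e⟩ := h.el_surj' (mul_mem hx m)
      have l := congrArg π e
      rw [h.co.mul _ hx _ m, a.2 _ (inv_mem hx), h.co.inv hx, h.π_el] at l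
      have := l ▸ (by decide +kernel : ∀ k < 3, ∀ c < 256, c ^^^ vm 8 c (lm (8 * k + 8)) ∈ L4 k) k hk _ (h.co.lt x hx)
      refine ⟨c, List.mem_append.2 ?_, e⟩
      rcases (by omega : c = c % 256 ∨ c % 256 + 256 = c) with l | l
      exacts [.inl (l ▸ this), .inr (List.mem_map.2 ⟨_, this, l⟩)]
  rw [List.length_append, List.length_map, (by decide +kernel : ∀ k < 3, (L4 k).length = 4) k hk, h.card_Q] at c64
  obtain ⟨c, hc, l⟩ := h.into (B := cj[b] (Q ⊓ 𝐂₁(w))) (isPGroup_cj _ h.ex.isPGroup.to_inf_left) (by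
    rw [← e, ← cj_centralizer_singleton]; exact cj_mono b inf_le_right)
  rw [← cj_mul] at l
  have e' : c * b * w * (c * b)⁻¹ = z := by rw [← conj_eq_iff.2 (mem_c1.1 hc), ← e]; group
  generalize c * b = b at l e'
  have nz : z ∉ cj[b] Q := fun m => (by decide +kernel : ∀ k < 3, lm (8 * k + 8) ≠ mo 8) k hk
    (h.co.uniq' a (h.co.ac_self (conj_mem_cj_iff.1 (e' ▸ m))) (lm_lt (by omega)) (mo_lt (by norm_num)))
  have := h.big (h.ex.cj b) (by rw [card_cj, h.card_Q]) (cj_mono b inf_le_left) l (conj_mem_cj b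
    ⟨h.ex.mem, mem_c1.2 (mem_c1.1 (h.acH a)).symm⟩) (fun m => nz (by simpa using h.sym (a := b) (b := 1) (by rwa [cj_one])))
    fun m => nz (cj_mono b inf_le_left m)
  rw [card_cj] at this
  omega

theorem tau {s : G} {k : ℕ} (hk : k < 3) (hs : s ∈ S) (a : Ac s (lm (8 * k + 8))) :
    ∃ τ, Ac τ (lm (8 * k + 8)) ∧ τ * τ = 1 ∧ τ * n = n * τ ∧ τ * g (7 - k) = g (7 - k) * τ := by
  obtain ⟨u, hu, e⟩ := exact_lift h.fr h.fq a (A := PA k) (by interval_cases k <;> decide +kernel)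
    (by interval_cases k <;> decide +kernel) 8 le_rfl
  obtain ⟨k1, k2, k3, k4, k5⟩ := (by decide +kernel : ∀ k < 3, (∀ i < 8, sg k i < 8 ∧ fld 9 (PA k) i = 2 ^ sg k i ∧
    sg k (sg k i) = i ∧ fld 9 (PA k) i % 256 = fld 8 (lm (8 * k + 8)) i) ∧ sg k 4 = 4 ∧ sg k 0 = 0 ∧ sg k (7 - k) = 7 - k ∧
    ∀ i < 3, ∃ j < 3, sg k (j + 1) = i + 1) k hk
  have m := inv_mem (mul_mem hs (h.QS hu))
  obtain ⟨c, ec⟩ : ∃ c, (s * u)⁻¹ = c := ⟨_, rfl⟩
  replace e : ∀ i < 8, c * g i * c⁻¹ = g (sg k i) := fun i hi => by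
    rw [← ec, inv_inv, e i hi, (k1 i hi).2.1, el_pow g z (k1 i hi).1]
  rw [ec] at m
  obtain ⟨τ, t1, t2, t3⟩ : ∃ τ ∈ H, τ * n = n * τ ∧ ∀ i < 8, τ * g i * τ⁻¹ = g (sg k i) :=
    (h.lemN (h.SN m) (mem_c1.1 (h.Sz m)) (conj_eq_iff.1 (by rw [e 4 (by omega), k2])) (conj_eq_iff.1 (by rw [e 0 (by omega), k3]))
      fun i hi => by
        obtain ⟨j, hj, l⟩ := k5 i hi
        exact ⟨j, hj, by rw [e _ (by omega), l]⟩).elim (fun l => ⟨c, h.Sz m, l, e⟩) fun l =>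
      ⟨_, mul_mem (mem_c1.2 rfl) (h.Sz m), l, fun i hi => by
        rw [show z * c * g i * (z * c)⁻¹ = z * (c * g i * c⁻¹) * z⁻¹ by group, e i hi,
          conj_eq_iff.2 (mem_c1.1 (h.gz (by have := (k1 i hi).1; omega))).symm]⟩
  have tt : τ * τ = 1 := (h.fr.cent_of h.fq (mul_mem t1 t1) fun i hi => by
    rw [show τ * τ * g i * (τ * τ)⁻¹ = τ * (τ * g i * τ⁻¹) * τ⁻¹ by group, t3 i hi, t3 _ (k1 i hi).1,
      (k1 i hi).2.2.1]).resolve_right fun l => absurd ((h.orc [17, 31] [31, 17]).1 (by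
        simpa only [ev_cons, ev_nil, mul_one, show evL g 17 = z from evL_odd g 8, show evL g 31 = n from evL_odd g 15, ← l]
          using ((show Commute τ n from t2).mul_left t2).eq)) (by decide +kernel)
  refine ⟨τ, h.ac_of t1 (A := PA k) (fun i hi => ?_) fun i hi => (k1 i hi).2.2.2, tt, t2,
    conj_eq_iff.1 (by rw [t3 _ (by omega), k4])⟩
  rw [(k1 i hi).2.1, el_pow g z (k1 i hi).1, ← t3 i hi, inv_eq_of_mul_eq_one_right tt]

theorem zt {w : G} (hw : w ∈ S) (c : IsConj z w) : w ∈ K := by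
  obtain ⟨i, hi, a⟩ := h.ac32 hw
  have p : 0 < 8 := by norm_num
  rcases lt_or_ge i 8 with l | l
  · obtain ⟨x, hx, e⟩ := h.sur (sv i)
    exact (K.mul_mem_cancel_left (K.inv_mem hx.1)).1 (h.QK (h.div (h.ac hx)
      (by rwa [e, (by decide +kernel : ∀ i < 8, ν (sv i) = lm i) i l])))
  exfalso
  have ww : w * w = 1 := by
    obtain ⟨b, rfl⟩ := isConj_iff.1 c
    rw [conj_mul, h.zz]; group
  obtain ⟨k, hk, σ, hσ, e⟩ := (by decide +kernel : ∀ i < 32, 8 ≤ i → mm 8 (lm i) (lm i) = mo 8 → ∃ k < 3, ∃ σ ∈ TL3,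
    mm 8 (mm 8 (ν σ) (lm i)) (ν σ⁻¹) = lm (8 * k + 8) ∨ mm 8 (mm 8 (ν σ) (lm i)) (ν σ⁻¹) = lm (8 * k + 8 + 2 ^ k)) i hi l
    (h.co.uniq' (h.mul a a) (ww ▸ h.co.cd.one') (mm_lt p _ _) (mo_lt p))
  obtain ⟨x, hx, rfl⟩ := h.sur σ
  replace a := h.mul (h.mul (h.ac hx) a) (h.ac (inv_mem hx))
  have xS := (h.SK x hx).2 hσ
  replace hw := mul_mem (mul_mem xS hw) (inv_mem xS)
  replace c := c.trans (isConj_iff.2 ⟨x, rfl⟩)
  replace ww : x * w * x⁻¹ * (x * w * x⁻¹) = 1 := by rw [conj_mul, ww]; group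
  rw [h.hom.inv hx] at a
  generalize x * w * x⁻¹ = w at *
  rcases e with e | e <;> rw [e] at a
  · exact h.rank2 hk a c
  obtain ⟨k1, k2, k3⟩ := (by decide +kernel : ∀ k < 3, mm 8 (ν (ga k)) (lm (8 * k + 8 + 2 ^ k)) = lm (8 * k + 8) ∧
    mm 8 (ν (ga k)) (lm (8 * k + 8)) = lm (8 * k + 8 + 2 ^ k) ∧ ∀ c < 256, vm 8 c (lm (8 * k + 8 + 2 ^ k)) = c →
      ∃ d < 256, vm 8 d (lm (8 * k + 8 + 2 ^ k)) ^^^ c ^^^ d = 0) k hk
  have aα := h.αac (j := k) (by omega)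
  obtain ⟨τ, t1, t2, t3, t4⟩ := h.tau hk (mul_mem (h.gS (k + 9) (by omega)) hw) (k1 ▸ h.mul aα a)
  have tn : n * τ * n⁻¹ = τ := conj_eq_iff.2 t3.symm
  have b := k2 ▸ h.mul aα t1
  obtain ⟨u, -, ε, -, e⟩ := h.free b (by
    rw [mul_assoc, ← mul_assoc τ, ← tn, ← h.nα hk, conj_mul, t4, ← conj_mul, h.nα hk, tn, mul_assoc, t2, mul_one,
      h.gg (by omega)]) (h.div b a) (by rwa [mul_inv_cancel_left]) k3
  rw [mul_inv_cancel_left] at e
  refine h.rank2 hk (w := g (7 - k) * τ * g 4 ^ ε) (h.fr.ac_mul ?_ (pow_mem (g_mem (by omega)) _))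
    (c.trans (isConj_iff.2 ⟨n * u, ?_⟩))
  · simpa only [mo_mm p (lm_lt (show 8 * k + 8 < 48 by omega))] using h.mul (h.co.ac_self (g_mem (i := 7 - k) (by omega))) t1
  · rw [← h.nα' hk, ← h.nt, conj_pow, ← tn, conj_mul, conj_mul, ← e]; group

theorem to16 {x : G} (hx : x ∈ Q) (nz : x ≠ z) (c : IsConj z x) : ∃ c ∈ H, c * x * c⁻¹ = g 4 := by
  obtain ⟨a, rfl⟩ := isConj_iff.1 c
  obtain ⟨c, hc, l⟩ := h.into (B := cj[a] Q ⊓ H) (isPGroup_cj _ h.ex.isPGroup).to_inf_left inf_le_right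
  rw [cj_inf, ← cj_mul, cj_eq_self_of_mem hc] at l
  have e : c * (a * z * a⁻¹) * c⁻¹ = c * a * z * (c * a)⁻¹ := by group
  have p := h.lq.pair h.c8 (g := c * a) (fun k => nz (by
    rw [← e, mul_inv_eq_iff_eq_mul, ← mem_c1.1 hc] at k; exact mul_left_cancel k)) (e ▸ norm_mem' (h.fr.nor hc) hx)
  have cP : Nat.card (cj[c * a] Q) = 2 ^ 9 := by rw [card_cj, h.card_Q]
  have cy : IsConj z (c * a * z * (c * a)⁻¹) := isConj_iff.2 ⟨_, rfl⟩
  rw [← e] at p cy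
  suffices k : π (c * (a * z * a⁻¹) * c⁻¹) = 16 by
    obtain ⟨u, hu, e⟩ := h.move p.tQ (h.fq 4 (by omega)).1 h.co.cd.one' (by
      rw [k, (h.fq 4 (by omega)).2, vm_mo (by norm_num) (by norm_num)]; rfl) (by rw [(h.fq 4 (by omega)).2]; norm_num)
    exact ⟨u⁻¹ * c, mul_mem (inv_mem (h.Qz hu)) hc, by rw [← e]; group⟩
  generalize c * (a * z * a⁻¹) * c⁻¹ = y at *
  generalize cj[c * a] Q = P at *
  by_contra n1
  obtain ⟨k, hk, lam⟩ := h.lam
  have n0 : π y ≠ 0 := fun e => (h.ex.mem_z.1 ((h.co.ker y p.tQ).1 e)).elim p.r.z_ne p.ne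
  have b := (lam_b k hk _ (h.co.lt y p.tQ) n0 n1).2.resolve_right fun ⟨r, hr, τ, _, k⟩ => h.not18 p.tQ ⟨r, hr, τ, k⟩ cy
  have a := h.card_le (B := P ⊓ H) (L := (Lam k).filter fun M => vm 8 (π y) M = π y ∧ mm 8 M M = mo 8) fun b hb => by
    obtain ⟨M, hM, a⟩ := lam b (l hb)
    exact ⟨M, List.mem_filter.2 ⟨hM, decide_eq_true ⟨by rw [← a.2 y p.tQ, mul_assoc, ← p.r.zc hb.1, inv_mul_cancel_left],
      h.co.uniq' (h.mul a a) (h.co.ac_self (zpowers_le.2 p.tQ (p.r.sq_mem hb.1))) (mm_lt (by norm_num) _ _)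
        (mo_lt (by norm_num))⟩⟩, a⟩
  have d := p.r.two_mul_card_c1 p.zP h.z_ne p.ne.symm
  have f := h.ex.card_mul_card (W := Q ⊓ P) ⟨h.ex.mem, p.zP⟩ inf_le_left
  have f1 := card_le_of_le (le_inf inf_le_left fun x hx y hy =>
    (Invol.commute_of_forall_mul_self (fun _ => p.E_sq) hy hx).eq : Q ⊓ P ≤ Q ⊓ 𝐂(Q ⊓ P))
  have f2 := card_le_of_le (le_inf inf_le_right (inf_le_left.trans inf_le_left) : P ⊓ H ⊓ Q ≤ Q ⊓ P)
  rw [h.card_Q] at f
  have f3 : Nat.card ↥(Q ⊓ P) ≤ 32 := by nlinarith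
  have := a.trans (Nat.mul_le_mul b (f2.trans f3))
  omega

end Cx

end CF.P83
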