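import Cfsg.Agent.P83.S6

/-! Fusion, and an element of order three. -/

set_option autoImplicit false
set_option maxRecDepth 1000000
set_option synthInstance.maxSize 20000
set_option linter.unusedSectionVars false

namespace CF.P83
open Cfsg Subgroup CF.Loc CF.Even CF.LX CF.J4 CF.Comp CF.Dce CF.LX4 CF.MonU Equiv Equiv.Perm
open CF.ThR (q8 b8 el qm apq el_pow el_shl el_zero conj_chi norm_c1 q8_lt b8_lt)

/-- the automorphism of order three -/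
def AD : ℕ := 0x83c2e1b0ebc6d3a5e1

/-- the powers of its matrix -/
noncomputable def MP (a : ℕ) : ℕ := nth 0 [0x8040201008040201, 0x70b0d0e78b4d2e1, 0x874b2d1e70b0d0e0] a

/-- the vectors of weight four -/
def z81 (c : ℕ) : Bool := Nat.testBit 0x966914431225e0080619c820a84000970169c280a4800907988021134115e996 c

/-- the vectors of weight one -/
def T12 : List ℕ := [31, 238, 241, 47, 221, 242, 79, 187, 244, 119, 143, 248]

theorem t12_iff : ∀ c < 256, c ∈ T12 ↔ q8 c = 1 ∧ ∀ d < 256, z81 d = true → z81 (c ^^^ d) = true ∨ q8 (c ^^^ d) = 1 := by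
  decide +kernel

theorem cases18 : ∀ c < 256, q8 c = 0 → c = 0 ∨ z81 c = true ∨ ∃ r ∈ [6, 10, 12], ∃ γ, vm 8 r (ν γ) = c ∧ r < 256 ∧ c ≠ 0 := by
  decide +kernel

variable {G : Type*} [Group G]

/-- the new generator -/
structure Dl (g : ℕ → G) (δ : G) : Prop where
  mem : δ ∈ 𝐂₁(g 8)
  act : ∀ i < 8, δ * g i * δ⁻¹ = el g (g 8) (fld 9 AD i)
  d3 : δ ^ 3 = 1
  inv : ∀ j < 6, g (j + 9) * δ * (g (j + 9))⁻¹ = δ⁻¹

variable [Finite G] {K S : Subgroup G} {g : ℕ → G}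

local notation "z" => g 8
local notation "n" => g 15
local notation "E" => el g (g 8)
local notation "Q" => QQ g
local notation "π" => cod g
local notation "Φ" => ph g
local notation "C0" => K ⊓ 𝐂₁(g 8)
local notation "H" => 𝐂₁(g 8)
local notation "Ac" => J4.Ac 8 (QQ g) (cod g)

namespace Cx
variable (h : Cx K g S)
include h

theorem red {w : G} (hw : w ∈ S) (c : IsConj z w) : ∃ k ∈ K, k * w * k⁻¹ ∈ Q := by
  have m : w ∈ C0 := ⟨h.zt hw c, h.Sz hw⟩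
  obtain ⟨τ, hτ, e⟩ := (by decide : ∀ γ ∈ TL3, ∃ τ < 8, γ = sv τ) _ ((h.SK w m).1 hw)
  rcases eq_or_ne τ 0 with rfl | n0
  · exact ⟨1, one_mem _, by simpa using h.kr m e⟩
  have C : Cd Nat.xor 0 (fun _ => false) fun x c => x ∈ C0 ∧ c < 8 ∧ Φ x = sv c :=
    ⟨⟨one_mem _, by norm_num, h.hom.one⟩, fun a b => ⟨mul_mem a.1 b.1, Nat.xor_lt_two_pow (show _ < 2 ^ 3 from a.2.1) b.2.1, by
      rw [h.hom _ a.1 _ b.1, a.2.2, b.2.2]
      exact (by decide : ∀ a < 8, ∀ b < 8, sv a * sv b = sv (Nat.xor a b)) _ a.2.1 _ b.2.1⟩, fun _ k => by simp at k⟩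
  obtain ⟨s1, -, s2⟩ := Cd.chi (g := fun j => g (j + 9)) C (fun j (hj : j < 3) => ⟨h.gC (by omega),
    Nat.pow_lt_pow_right one_lt_two hj, (h.Φα (by omega)).trans ((by decide +kernel : ∀ j < 3, ga j = sv (2 ^ j)) j hj)⟩) τ
  rw [(by decide +kernel : ∀ τ < 8, chiC Nat.xor 0 (2 ^ ·) 3 τ = τ) τ hτ] at s2
  obtain ⟨u, hu, ε, -, e⟩ := h.free (s2 ▸ h.ac s1) (by
    rw [← chi_xor (fun i hi => h.gg (by omega)) fun i hi j hj => h.gc (by revert i j; decide +kernel), Nat.xor_self, chi_zero])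
    (h.div_mem s1 m (s2.trans e.symm)) (by
      obtain ⟨b, rfl⟩ := isConj_iff.1 c
      rw [mul_inv_cancel_left, conj_mul, h.zz]; group)
    ((by decide +kernel : ∀ τ < 8, τ ≠ 0 → ∀ c < 256, vm 8 c (ν (sv τ)) = c → ∃ d < 256, vm 8 d (ν (sv τ)) ^^^ c ^^^ d = 0)
      τ hτ n0)
  rw [mul_inv_cancel_left] at e
  refine ⟨n * u, mul_mem (h.mem 15) (h.QK hu), ?_⟩
  rw [show n * u * w * (n * u)⁻¹ = n * (u * w * u⁻¹) * n⁻¹ by group, e, ← conj_mul, ← conj_pow, h.nt, conj_chi]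
  exact mul_mem (chi_mem (fun i hi => h.nα' hi ▸ g_mem (by omega)) _) (pow_mem (g_mem (by omega)) _)

variable {L : Subgroup G}

theorem fus (KL : K ≤ L) (t : ∀ k ∈ H, ∃ y ∈ L ⊓ H, y⁻¹ * g 4 * y = k⁻¹ * g 4 * k) {w : G} (hw : w ∈ S) (c : IsConj z w) :
    ∃ y ∈ L, y * z * y⁻¹ = w := by
  obtain ⟨k, hk, m⟩ := h.red hw c
  rcases eq_or_ne (k * w * k⁻¹) z with e | e
  · exact ⟨k⁻¹, inv_mem (KL hk), by rw [← e]; group⟩
  · obtain ⟨a, ha, e⟩ := h.to16 m e (c.trans (isConj_iff.2 ⟨k, rfl⟩))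
    obtain ⟨y, hy, e'⟩ := t a ha
    refine ⟨k⁻¹ * y⁻¹ * n, mul_mem (mul_mem (inv_mem (KL hk)) (L.inv_mem hy.1)) (KL (h.mem 15)), ?_⟩
    calc _ = k⁻¹ * (y⁻¹ * (n * z * n⁻¹) * y) * k := by group
      _ = _ := by rw [h.nt, e', ← e]; group

theorem norL (KL : K ≤ L) (t : ∀ k ∈ H, ∃ y ∈ L ⊓ H, y⁻¹ * g 4 * y = k⁻¹ * g 4 * k)
    (gen : ∀ M, K ≤ M → H ≤ 𝐍(M) → L ≤ M) : H ≤ 𝐍(L) := by
  obtain ⟨M, eM⟩ : ∃ M, Q ⊔ ⨆ k : H, cj[(k : G) * n] Q = M := ⟨_, rfl⟩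
  have nM : H ≤ 𝐍(M) := eM ▸ le_normalizer_sup h.fr.nor fun x hx => mem_normalizer_of_cj_le (by
    rw [cj_iSup]
    exact iSup_le fun k => le_iSup_of_le ⟨x * k, mul_mem hx k.2⟩ (by rw [← cj_mul, mul_assoc]))
  have QM : Q ≤ M := eM ▸ le_sup_left
  have PM : ∀ x ∈ Q, n * x * n⁻¹ ∈ M := fun x hx => eM ▸ mem_sup_right (mem_iSup_of_mem 1 (by
    simpa using conj_mem_cj n hx))
  have aM : ∀ j < 3, g (j + 9) ∈ M := fun j hj => h.nα hj ▸ PM _ (g_mem (by omega))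
  have KM : K ≤ M := h.gen M fun i hi => by
    rcases (by decide : ∀ i < 16, i < 9 ∨ (∃ j < 3, i = j + 9) ∨ (∃ j < 3, i = j + 12) ∨ i = 15) i hi with
      l | ⟨j, hj, rfl⟩ | ⟨j, hj, rfl⟩ | rfl
    · exact QM (g_mem l)
    · exact aM j hj
    · have := h.same (u := [2 * (j + 12) + 1]) (w := cjw [2 * (j + 9) + 1, 2 * (j + 12) + 1] [2 * (j + 9) + 1])
        (by revert j; decide +kernel)
      rw [ev_single, ev_cjw, ev_single] at this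
      rw [this]
      exact norm_mem' (nM (by
        simpa only [ev_cons, ev_nil, evL_odd, mul_one] using mul_mem (h.gz (by omega)) (h.gz (by omega)))) (aM j hj)
    · have := h.same (u := [2 * 15 + 1]) (w := [2 * 0 + 1] ++ cjw [2 * 15 + 1] [2 * 0 + 1] ++ [2 * 0 + 1]) (by decide +kernel)
      simp only [ev_append, ev_cjw, ev_single] at this
      rw [this]
      exact mul_mem (mul_mem (QM (g_mem (by omega))) (PM _ (g_mem (by omega)))) (QM (g_mem (by omega)))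
  rwa [le_antisymm (gen M KM nM) (eM ▸ sup_le (h.QK.trans KL) (iSup_le fun k => ?_))]
  obtain ⟨y, hy, e⟩ := t _ (inv_mem k.2)
  rw [h.lq.cj_eq (g := y⁻¹ * n) (by
    calc _ = (k : G)⁻¹⁻¹ * (n * z * n⁻¹) * (k : G)⁻¹ := by group
      _ = y⁻¹ * (n * z * n⁻¹) * y := by rw [h.nt, e]
      _ = _ := by group)]
  exact cj_le_of_mem (mul_mem (L.inv_mem hy.1) (KL (h.mem 15))) (h.QK.trans KL)

theorem q4c {k : G} (hk : k ∈ H) : k⁻¹ * g 4 * k ∈ Q ∧ IsConj z (k⁻¹ * g 4 * k) ∧ z81 (π (k⁻¹ * g 4 * k)) = true := by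
  have m := norm_mem (h.fr.nor hk) (g_mem (i := 4) (by omega))
  have c : IsConj z (k⁻¹ * g 4 * k) := isConj_iff.2 ⟨k⁻¹ * n, by rw [← h.nt]; group⟩
  refine ⟨m, c, ((cases18 _ (h.co.lt _ m) ((h.fr.sq_iff m).1 (by
    rw [← inv_inv k, inv_inv k⁻¹, conj_mul, h.gg (by omega)]; group))).resolve_left fun e => ?_).resolve_right
      fun e => h.not18 m e c⟩
  have := norm_mem' (h.nz hk) ((h.co.ker _ m).1 e)
  rw [show k * (k⁻¹ * g 4 * k) * k⁻¹ = g 4 by group, ← h.co.ker _ (g_mem (by omega)), (h.fq 4 (by omega)).2] at this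
  exact absurd this (by norm_num)

theorem caseA (p : ∀ k ∈ H, pu (π (k⁻¹ * g 4 * k)) = true) : ∀ k ∈ H, ∃ y ∈ K ⊓ H, y⁻¹ * g 4 * y = k⁻¹ * g 4 * k :=
  fun k hk => by
    have m := (h.q4c hk).1
    obtain ⟨γ, e, n0⟩ := (by decide +kernel : ∀ c < 256, pu c = true → ∃ γ, vm 8 (2 ^ 4) (ν γ) = c ∧ c ≠ 0) _ (h.co.lt _ m) (p k hk)
    obtain ⟨x, hx, rfl⟩ := h.sur γ
    obtain ⟨u, hu, e⟩ := h.move (h.fq 4 (by omega)).1 m (h.ac hx) (by rwa [(h.fq 4 (by omega)).2]) n0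
    exact ⟨_, mul_mem hx (h.QC hu), e⟩

theorem q8_ac {k : G} {M : ℕ} (a : Ac k M) {c : ℕ} (hc : c < 256) : q8 (vm 8 c M) = q8 c := by
  obtain ⟨x, hx, rfl⟩ := h.co.surj c hc
  refine zp_inj h.zz h.z_ne (q8_lt _) (q8_lt _) ?_
  rw [← a.2 x hx, ← h.sq' _ (norm_mem a.1 hx), ← h.fr.conj_zp (h.acH a), ← h.sq' x hx]; group

theorem b8_ac {k : G} {M : ℕ} (a : Ac k M) {c d : ℕ} (hc : c < 256) (hd : d < 256) : b8 (vm 8 c M) (vm 8 d M) = b8 c d := by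
  have := h.q8_ac a (Nat.xor_lt_two_pow (show c < 2 ^ 8 from hc) hd)
  rw [vm_xor, ThR.q8_xor, ThR.q8_xor, h.q8_ac a hc, h.q8_ac a hd] at this
  exact Nat.xor_right_inj.1 this

theorem vm_inv {k : G} {M N : ℕ} (a : Ac k M) (b : Ac k⁻¹ N) {c : ℕ} (hc : c < 256) : vm 8 (vm 8 c M) N = c := by
  rw [← vm_mm (by norm_num), h.co.uniq (h.mul a b) (by rw [mul_inv_cancel]; exact h.co.cd.one') hc, vm_mo (by norm_num) hc]

theorem caseB {k : G} (hk : k ∈ H) (np : ¬ pu (π (k⁻¹ * g 4 * k)) = true) : ∃ δ, Dl g δ := by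
  have p : 0 < 8 := by norm_num
  have f4 := h.fq 4 (by omega)
  have all : ∀ c < 256, z81 c = true → ∃ k ∈ H, π (k⁻¹ * g 4 * k) = c := fun c hc e => by
    have m := h.q4c hk
    rcases (by decide +kernel : ∀ c < 256, z81 c = true → (∃ γ, vm 8 (2 ^ 4) (ν γ) = c) ∨ ∃ γ, vm 8 7 (ν γ) = c) c hc e with
      ⟨γ, rfl⟩ | ⟨γ, rfl⟩
    · obtain ⟨x, hx, rfl⟩ := h.sur γ
      exact ⟨x, hx.2, by rw [(h.ac hx).2 _ f4.1, f4.2]⟩
    · obtain ⟨γ', e⟩ := (by decide +kernel : ∀ c < 256, z81 c = true → ¬ pu c = true → ∃ γ, vm 8 c (ν γ) = 7) _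
        (h.co.lt _ m.1) m.2.2 np
      obtain ⟨x, hx, l⟩ := h.sur (γ' * γ)
      refine ⟨k * x, mul_mem hk hx.2, ?_⟩
      rw [show (k * x)⁻¹ * g 4 * (k * x) = x⁻¹ * (k⁻¹ * g 4 * k) * x by group, (h.ac hx).2 _ m.1, l, vν, e]
  have pz : ∀ {k M c}, Ac k M → c < 256 → z81 c = true → z81 (vm 8 c M) = true := fun {k M c} a hc e => by
    obtain ⟨x, hx, rfl⟩ := all c hc e
    have := (h.q4c (mul_mem hx (h.acH a))).2.2
    rwa [show (x * k)⁻¹ * g 4 * (x * k) = k⁻¹ * (x⁻¹ * g 4 * x) * k by group, a.2 _ (h.q4c hx).1] at this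
  have pt : ∀ {k M c}, Ac k M → c ∈ T12 → vm 8 c M ∈ T12 := fun {k M c} a hc => by
    have l := (by decide : ∀ c ∈ T12, c < 256) c hc
    obtain ⟨N, -, b⟩ := h.ex_ac (inv_mem (h.acH a))
    obtain ⟨k1, k2⟩ := (t12_iff c l).1 hc
    refine (t12_iff _ (vm_lt _ _ _)).2 ⟨by rwa [h.q8_ac a l], fun d hd e => ?_⟩
    have l' := Nat.xor_lt_two_pow (show c < 2 ^ 8 from l) (vm_lt 8 d N)
    rw [← h.vm_inv b (by rwa [inv_inv]) hd, ← vm_xor, h.q8_ac a l']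
    exact (k2 _ (vm_lt _ _ _) (pz b hd e)).imp_left (pz a l')
  obtain ⟨k, hk, e⟩ := all 30 (by norm_num) rfl
  obtain ⟨M, -, a⟩ := h.ex_ac hk
  obtain ⟨N, -, b⟩ := h.ex_ac (inv_mem hk)
  rw [a.2 _ f4.1, f4.2] at e
  obtain ⟨ι, hι, eι⟩ := h.sur (sv 7)
  have aι := eι ▸ h.ac hι
  have c := h.mul (h.mul b aι) a
  have t : ∀ t ∈ T12, vm 8 t (mm 8 (mm 8 N (ν (sv 7))) M) = vm 8 t 0x6fafcf0e76badcf0 := fun t ht => by
    have l := (by decide : ∀ c ∈ T12, c < 256) t ht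
    have t' := pt b ht
    have e' := h.vm_inv b (by rwa [inv_inv]) l
    have l16 : 2 ^ 4 < 256 := by norm_num
    rw [vm_mm p, vm_mm p]
    refine (by decide +kernel : ∀ t ∈ T12, ∀ s ∈ T12, b8 t 30 = 0 ∧ s = t ∨ b8 t 30 = 1 ∧ b8 s t = 1 ∧ b8 s 30 = 1 →
      s = vm 8 t 0x6fafcf0e76badcf0) t ht _ (pt a (pt aι t')) ?_
    have l' := vm_lt 8 t N
    generalize vm 8 t N = s at t' e' l'
    rw [← e, ← e', h.b8_ac a l' l16, h.b8_ac a (vm_lt _ _ _) l16, h.b8_ac a (vm_lt _ _ _) l']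
    exact ((by decide +kernel : ∀ t ∈ T12, b8 t (2 ^ 4) = 0 ∧ vm 8 t (ν (sv 7)) = t ∨ b8 t (2 ^ 4) = 1 ∧
      b8 (vm 8 t (ν (sv 7))) t = 1 ∧ b8 (vm 8 t (ν (sv 7))) (2 ^ 4) = 1) _ t').imp_left fun k => ⟨k.1, by rw [k.2]⟩
  have t0 : ∀ t ∈ 0 :: T12, vm 8 t (mm 8 (mm 8 N (ν (sv 7))) M) = vm 8 t 0x6fafcf0e76badcf0 :=
    List.forall_mem_cons.2 ⟨by rw [vm_zero, vm_zero], t⟩
  replace c := h.mul aι (h.co.congr c (y := 0x6fafcf0e76badcf0) (xor_ind (by rw [vm_zero, vm_zero]) (fun i hi => by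
    obtain ⟨a, ha, b, hb, c, hc, d, hd, e⟩ := (by decide +kernel : ∀ i < 8, ∃ a ∈ 0 :: T12, ∃ b ∈ 0 :: T12, ∃ c ∈ 0 :: T12,
      ∃ d ∈ 0 :: T12, 2 ^ i = a ^^^ b ^^^ c ^^^ d) i hi
    simp only [e, vm_xor, t0 a ha, t0 b hb, t0 c hc, t0 d hd]) fun a _ b _ e e' => by rw [vm_xor, vm_xor, e, e']))
  obtain ⟨u, hu, e⟩ := exact_lift h.fr h.fq c (A := AD) (by decide +kernel) (by decide +kernel) 8 le_rfl
  have m := inv_mem (mul_mem (h.acH c) (h.Qz hu))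
  obtain ⟨d, ed⟩ : ∃ d, (ι * (k⁻¹ * ι * k) * u)⁻¹ = d := ⟨_, rfl⟩
  replace e : ∀ i < 8, d * g i * d⁻¹ = E (fld 9 AD i) := fun i hi => by rw [← ed, inv_inv, e i hi]
  rw [ed] at m
  obtain ⟨δ, d1, d2, d3⟩ : ∃ δ ∈ H, (∀ i < 8, δ * g i * δ⁻¹ = E (fld 9 AD i)) ∧ δ ^ 3 = 1 := by
    have c := h.fr.conj_el h.fq m e
    rcases h.fr.cent_of h.fq (pow_mem m 3) fun i hi => by
      rw [show d ^ 3 * g i * (d ^ 3)⁻¹ = d * (d * (d * g i * d⁻¹) * d⁻¹) * d⁻¹ by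
        simp only [pow_succ, pow_zero, one_mul, mul_inv_rev, mul_assoc], e i hi, c, c,
        (by decide +kernel : ∀ i < 8, apq AD (apq AD (fld 9 AD i)) = 2 ^ i) i hi, el_pow g z hi] with l | l
    · exact ⟨d, m, e, l⟩
    · refine ⟨d * z, mul_mem m (mem_c1.2 rfl), fun i hi => ?_, ?_⟩
      · rw [← e i hi, mul_assoc d, ← mem_c1.1 (h.gz (by omega))]; group
      · rw [(show Commute d z from mem_c1.1 m).mul_pow, l, pow_succ, sq, h.zz, one_mul, h.zz]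
  refine ⟨δ, d1, d2, d3, fun j hj => h.odd3 (by rw [conj_pow, d3]; group) (by rw [inv_pow, d3, inv_one]) (inv_mem d1) ?_⟩
  have x := h.gz (i := j + 9) (by omega)
  have c := h.fr.conj_el h.fq d1 d2
  have c' := h.fr.conj_el h.fq x (h.αa hj)
  have := h.fr.cent_of h.fq (mul_mem (mul_mem (mul_mem d1 x) d1) x) fun i hi => by
    rw [show δ * g (j + 9) * δ * g (j + 9) * g i * (δ * g (j + 9) * δ * g (j + 9))⁻¹ =
      δ * (g (j + 9) * (δ * (g (j + 9) * g i * (g (j + 9))⁻¹) * δ⁻¹) * (g (j + 9))⁻¹) * δ⁻¹ by group, h.αa hj i hi, c, c', c,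
      (by decide +kernel : ∀ j < 6, ∀ i < 8, apq AD (apq (nth 0 AL j) (apq AD (fld 9 (nth 0 AL j) i))) = 2 ^ i) j hj i hi,
      el_pow g z hi]
  rw [h.gi (by omega)]
  exact this.imp (fun l => by rw [← mul_one δ⁻¹, ← l]; group) fun l => by rw [← l]; group

end Cx

end CF.P83
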