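import Cfsg.Agent.P83.S7

/-! The conjugates of the root involution in its centraliser. -/

set_option autoImplicit false
set_option maxRecDepth 1000000
set_option synthInstance.maxSize 20000
set_option linter.unusedSectionVars false

namespace CF.P83
open Cfsg Subgroup CF.Loc CF.Even CF.LX CF.J4 CF.Comp CF.Dce CF.LX4 CF.MonU Equiv Equiv.Perm
open CF.ThR (q8 b8 el qm apq el_pow el_shl el_zero conj_chi norm_c1 q8_lt b8_lt)

/-- an element of order three -/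
def ew : List ℕ := [19, 25, 21, 27]

/-- an element of its centraliser -/
def uw : List ℕ := [31, 25, 27, 31]

/-- another one -/
def pw : List ℕ := [31, 27, 25, 31, 15, 13]

theorem ce1 : ∀ γ, ∀ a < 3, (force (mm 8 (ν γ) (MP a)) fun M => decide (mm 8 M M = mo 8 →
    mm 8 M (ν (ga 2)) = mm 8 (ν (ga 2)) M → mm 8 M (ν (ga 0 * ga 3 * ga 1 * ga 4)) = mm 8 (ν (ga 0 * ga 3 * ga 1 * ga 4)) M →
    M = mo 8 ∨ M = ν (ga 2))) = true := by decide +kernel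

theorem ce2 : ∀ ε < 2, ∀ c < 512, bv (wpow [23] ε ++ qw c ++ ew) = bv (ew ++ (wpow [23] ε ++ qw c)) →
    (∀ d ∈ [12, 308], bv (wpow [23] ε ++ qw c ++ cjw pw (qw d)) = bv (cjw pw (qw d) ++ (wpow [23] ε ++ qw c))) →
    ∃ x ∈ [[], [17], cjw uw [17], [23]], ∃ d ∈ [0, 12, 308, 312], bv (wpow [23] ε ++ qw c) = bv (cjw pw (x ++ qw d)) := by
  decide +kernel

variable {G : Type*} [Group G] [Finite G] {K S : Subgroup G} {g : ℕ → G} {δ : G}

local notation "z" => g 8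
local notation "n" => g 15
local notation "E" => el g (g 8)
local notation "Q" => QQ g
local notation "π" => cod g
local notation "Φ" => ph g
local notation "C0" => K ⊓ 𝐂₁(g 8)
local notation "H" => 𝐂₁(g 8)
local notation "Ac" => J4.Ac 8 (QQ g) (cod g)
local notation "C1" => K ⊓ 𝐂₁(g 8) ⊔ zpowers δ

namespace Cx
variable (h : Cx K g S)
include h

theorem S0_le {M : Subgroup G} (QM : Q ≤ M) (a : ∀ j < 3, g (j + 9) ∈ M) {x : G} (hx : x ∈ C0) (e : Φ x ∈ TL3) : x ∈ M := by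
  have m : ∀ j < 3, ga j ∈ h.hom.im (M ⊓ (C0)) inf_le_right := fun j hj =>
    h.hom.mem_im.2 ⟨_, ⟨a j hj, h.gC (by omega)⟩, h.Φα (by omega)⟩
  obtain ⟨i, -, j, -, k, -, l⟩ := (by decide +kernel : ∀ γ ∈ TL3, ∃ i < 2, ∃ j < 2, ∃ k < 2,
    ga 0 ^ i * ga 1 ^ j * ga 2 ^ k = γ) _ e
  obtain ⟨y, hy, e⟩ := h.hom.mem_im.1 (l ▸ mul_mem (mul_mem (pow_mem (m 0 (by omega)) i) (pow_mem (m 1 (by omega)) j))
    (pow_mem (m 2 (by omega)) k))
  exact (M.mul_mem_cancel_left (M.inv_mem hy.1)).1 (QM (h.div_mem hy.2 hx e))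

variable (d : Dl g δ)
include d

theorem acδ {a : ℕ} (ha : a < 3) : Ac (δ⁻¹ ^ a) (MP a) := by
  have k : Ac δ⁻¹ (MP 1) := h.ac_of (inv_mem d.mem) (A := AD) (fun i hi => by rw [inv_inv, d.act i hi]) (by decide +kernel)
  interval_cases a
  · rw [pow_zero]; exact (by decide +kernel : mo 8 = MP 0) ▸ h.co.cd.one'
  · rwa [pow_one]
  · exact (by decide +kernel : mm 8 (MP 1) (MP 1) = MP 2) ▸ sq δ⁻¹ ▸ h.mul k k

theorem C1H : C1 ≤ H := sup_le inf_le_right (zpowers_le.2 d.mem)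

theorem in1 {x : G} (hx : x ∈ C1) : ∃ γ, ∃ a < 3, Ac x (mm 8 (ν γ) (MP a)) := by
  have p : 0 < 8 := by norm_num
  obtain ⟨I, hI⟩ : ∃ I : G → Prop, ∀ x, I x ↔ ∃ γ, ∃ a < 3, Ac x (mm 8 (ν γ) (MP a)) := ⟨_, fun _ => Iff.rfl⟩
  have mu : ∀ {x y}, I x → I y → I (x * y) := fun a b => by
    obtain ⟨γ, a, ha, k⟩ := (hI _).1 a
    obtain ⟨γ', b, hb, k'⟩ := (hI _).1 b
    obtain ⟨a', ha', e⟩ := (by decide +kernel : ∀ γ, ∀ a < 3, ∃ b < 3, mm 8 (MP a) (ν γ) = mm 8 (ν γ) (MP b)) γ' a ha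
    obtain ⟨c, hc, e'⟩ := (by decide +kernel : ∀ a < 3, ∀ b < 3, ∃ c < 3, mm 8 (MP a) (MP b) = MP c) a' ha' b hb
    refine (hI _).2 ⟨γ * γ', c, hc, ?_⟩
    rw [ν_mul, ← e', mm_assoc p, ← mm_assoc p (ν γ'), ← e, mm_assoc p, ← mm_assoc p (ν γ)]
    exact h.mul k k'
  have c0 : ∀ x ∈ C0, I x := fun x hx => (hI _).2 ⟨Φ x, 0, by omega, by
    rw [← (by decide +kernel : mo 8 = MP 0), mm_mo p (ν_lt _)]; exact h.ac hx⟩
  have i1 : I δ⁻¹ := (hI _).2 ⟨1, 1, by omega, by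
    simpa only [ν_one, mo_mm p (by decide +kernel : MP 1 < 2 ^ (8 * 8)), pow_one] using h.acδ d (a := 1) (by omega)⟩
  let U : Subgroup G := { carrier := {x | I x ∧ I x⁻¹}
                          one_mem' := ⟨c0 _ (one_mem _), c0 _ (inv_mem (one_mem _))⟩
                          mul_mem' := fun a b => ⟨mu a.1 b.1, by rw [mul_inv_rev]; exact mu b.2 a.2⟩
                          inv_mem' := fun a => ⟨a.2, by rw [inv_inv]; exact a.1⟩ }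
  refine (hI _).1 ((sup_le (fun x hx => ⟨c0 x hx, c0 _ (inv_mem hx)⟩) (zpowers_le.2 ⟨?_, i1⟩) : C1 ≤ U) hx).1
  rw [show δ = δ⁻¹ * δ⁻¹ by rw [← mul_one (δ⁻¹ * δ⁻¹), ← d.d3]; group]
  exact mu i1 i1

theorem tr {k : G} (hk : k ∈ H) : ∃ y ∈ C1, y⁻¹ * g 4 * y = k⁻¹ * g 4 * k := by
  obtain ⟨m, -, e⟩ := h.q4c hk
  obtain ⟨a, ha, γ, e, n0⟩ := (by decide +kernel : ∀ c < 256, z81 c = true → ∃ a < 3, ∃ γ,
    vm 8 (vm 8 (2 ^ 4) (MP a)) (ν γ) = c ∧ c ≠ 0) _ (h.co.lt _ m) e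
  obtain ⟨x, hx, rfl⟩ := h.sur γ
  obtain ⟨u, hu, e⟩ := h.move (h.fq 4 (by omega)).1 m (h.mul (h.acδ d ha) (h.ac hx))
    (by rwa [(h.fq 4 (by omega)).2, vm_mm (by norm_num)]) n0
  exact ⟨_, mul_mem (mul_mem (mem_sup_right (pow_mem (inv_mem (mem_zpowers δ)) a)) (mem_sup_left hx))
    (mem_sup_left (h.QC hu)), e⟩

theorem zt1 {w : G} (hw : w ∈ H) (c : IsConj z w) : w ∈ C1 := by
  obtain ⟨k, hk, l⟩ := h.into (two_zp (x := w) (by
    obtain ⟨b, rfl⟩ := isConj_iff.1 c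
    rw [conj_mul, h.zz]; group)) (zpowers_le.2 hw)
  have s := l (conj_mem_cj k (mem_zpowers w))
  have m : k * w * k⁻¹ ∈ C0 := ⟨h.zt s (c.trans (isConj_iff.2 ⟨k, rfl⟩)), h.Sz s⟩
  obtain ⟨y, hy, e⟩ := h.tr d hk
  have t : k * y⁻¹ ∈ H := mul_mem hk (inv_mem (h.C1H d hy))
  have a := norm_mem (le_normalizer_sup (L := zpowers (k * y⁻¹)) (zpowers_le.2 (h.fr.nor t)) (zpowers_le.2 ((h.lq.cj n).nor' (by
    rw [h.nt]
    calc _ = k * (y⁻¹ * g 4 * y) * y⁻¹ := by group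
      _ = _ := by rw [e]; group))) (mem_zpowers _)) (h.S0_le le_sup_left (fun j hj => mem_sup_right
        (h.nα hj ▸ conj_mem_cj n (g_mem (by omega)))) m ((h.SK _ m).1 s))
  rw [show w = y⁻¹ * ((k * y⁻¹)⁻¹ * (k * w * k⁻¹) * (k * y⁻¹)) * y by group]
  exact mul_mem (mul_mem (inv_mem hy) (mem_sup_left ⟨sup_le h.QK (cj_le_of_mem (h.mem 15) h.QK) a,
    (H).mul_mem ((H).mul_mem ((H).inv_mem t) m.2) t⟩)) hy

theorem ce {w : G} (c : IsConj z w) (c1 : Commute w (g 11)) (c2 : Commute w (ev g ew)) (c3 : ∀ d ∈ [12, 308], Commute w (E d)) :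
    ∃ x ∈ [1, z, ev g uw * z * (ev g uw)⁻¹, g 11], ∃ d ∈ [0, 12, 308, 312], w = x * E d := by
  have p : 0 < 8 := by norm_num
  have g11 : ev g [23] = g 11 := ev_single g 11
  have e1 := h.same (u := cjw pw [23]) (w := [17]) (by decide +kernel)
  have e2 := h.same (u := cjw pw ew) (w := ew) (by decide +kernel)
  have e3 := h.same (u := cjw pw (qw 308)) (w := [23] ++ qw (apq (nth 0 AL 2) 52)) (by decide +kernel)
  rw [ev_append, ev_qw] at e3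
  rw [ev_cjw] at e1 e2 e3
  rw [g11, ev_z] at e1
  rw [g11, ev_qw] at e3
  have cj : ∀ {a b : G}, Commute a b → Commute (ev g pw * a * (ev g pw)⁻¹) (ev g pw * b * (ev g pw)⁻¹) := fun e => by
    rw [Commute, SemiconjBy, conj_mul, conj_mul, e.eq]
  replace c1 := e1 ▸ cj c1
  replace c2 := e2 ▸ cj c2
  replace c3 := fun d hd => cj (c3 d hd)
  replace c := c.trans (isConj_iff.2 ⟨ev g pw, rfl⟩)
  obtain ⟨v, ev'⟩ : ∃ v, ev g pw * w * (ev g pw)⁻¹ = v := ⟨_, rfl⟩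
  rw [ev'] at c c1 c2 c3
  obtain ⟨γ, a, ha, k⟩ := h.in1 d (h.zt1 d (mem_c1.2 c1.eq) c)
  have u := ce1 γ a ha
  rw [force_eq, decide_eq_true_iff] at u
  have cm : ∀ {x M}, Ac x M → Commute v x → mm 8 (mm 8 (ν γ) (MP a)) M = mm 8 M (mm 8 (ν γ) (MP a)) := fun a e =>
    h.co.uniq' (h.mul k a) (e.eq ▸ h.mul a k) (mm_lt p _ _) (mm_lt p _ _)
  have a2 := h.αac (j := 2) (by omega)
  obtain ⟨ε, hε, m⟩ : ∃ ε < 2, (g 11 ^ ε)⁻¹ * v ∈ Q := (u (h.co.uniq' (h.mul k k) (by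
      obtain ⟨b, rfl⟩ := isConj_iff.1 c
      rw [conj_mul, h.zz, mul_one, mul_inv_cancel]; exact h.co.cd.one') (mm_lt p _ _) (mo_lt p))
    (cm (h.fr.ac_mul a2 (el_mem _)) (e3 ▸ c3 308 (by simp))) (cm (by
      simpa only [ew, ev_cons, ev_nil, mul_one, ν_mul, mul_assoc, mm_assoc p, ← evL_odd g (_ + 9)] using
        h.mul (h.mul (h.mul (h.αac (j := 0) (by omega)) (h.αac (j := 3) (by omega))) (h.αac (j := 1) (by omega)))
          (h.αac (j := 4) (by omega))) c2)).elim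
    (fun e => ⟨0, by omega, by simpa using h.mem_of_ac (e ▸ k)⟩) fun e => ⟨1, by omega, by simpa using h.div a2 (e ▸ k)⟩
  obtain ⟨c, hc, e⟩ := h.el_surj' m
  have ev : ev g (wpow [23] ε ++ qw c) = v := by rw [ev_append, ev_wpow, g11, ev_qw, ← e, mul_inv_cancel_left]
  obtain ⟨x, hx, b, hb, e⟩ := ce2 ε hε c hc ((h.orc _ _).1 (by rw [ev_append, ev_append _ ew, ev, c2.eq])) fun b hb =>
    (h.orc _ _).1 (by rw [ev_append, ev_append _ (cjw _ _), ev, ev_cjw, ev_qw, (c3 b hb).eq])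
  replace e := h.same e
  rw [ev, ev_cjw, ← ev', mul_left_inj, mul_right_inj, ev_append, ev_qw] at e
  refine ⟨_, ?_, b, hb, e⟩
  simp only [List.mem_cons, List.not_mem_nil, or_false] at hx ⊢
  rcases hx with rfl | rfl | rfl | rfl
  exacts [.inl rfl, .inr (.inl (ev_z g)), .inr (.inr (.inl (by rw [ev_cjw, ev_z]))), .inr (.inr (.inr g11))]

end Cx

end CF.P83
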