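import Cfsg.Agent.P83.S8
import Cfsg.Agent.LX4.O3

/-! The commutator relation. -/

set_option autoImplicit false
set_option maxRecDepth 1000000
set_option synthInstance.maxSize 20000
set_option linter.unusedSectionVars false

namespace CF.P83
open Cfsg Subgroup CF.Loc CF.Even CF.LX CF.J4 CF.Comp CF.Dce CF.LX4 CF.MonU Equiv Equiv.Perm
open CF.ThR (q8 b8 el qm apq el_pow el_shl el_zero conj_chi norm_c1 q8_lt b8_lt)

variable {G : Type*} [Group G]

theorem dihed [Finite G] {s r : G} (ss : s * s = 1) (rr : r * r = 1) :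
    (∃ k : ℕ, (s * r) ^ k * s * ((s * r) ^ k)⁻¹ = r) ∨ ∃ k : ℕ, (s * r) ^ k ≠ 1 ∧ (s * r) ^ k * (s * r) ^ k = 1 := by
  have p := orderOf_pos (s * r)
  have e := pow_orderOf_eq_one (s * r)
  obtain ⟨k, l | l⟩ := Nat.even_or_odd' (orderOf (s * r))
  · exact .inr ⟨k, pow_ne_one_of_lt_orderOf (by omega) (by omega), by rw [← pow_add, ← two_mul, ← l, e]⟩
  · refine .inl ⟨k, ?_⟩
    have c : s⁻¹ * (s * r) * s⁻¹⁻¹ = (s * r)⁻¹ := by
      rw [mul_inv_rev, inv_inv, inv_mul_cancel_left, inv_eq_of_mul_eq_one_right rr, inv_eq_of_mul_eq_one_right ss]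
    rw [l, pow_succ, two_mul, pow_add] at e
    calc _ = s * ((s⁻¹ * (s * r) ^ k * s⁻¹⁻¹) * ((s * r) ^ k)⁻¹) := by group
      _ = s * ((s * r) ^ k * (s * r) ^ k)⁻¹ := by rw [← conj_pow, c, inv_pow, mul_inv_rev]
      _ = _ := by rw [inv_eq_of_mul_eq_one_right e, ← mul_assoc, ss, one_mul]

theorem dih_cen {s r : G} (ss : s * s = 1) (rr : r * r = 1) {k : ℕ} (e : (s * r) ^ k * (s * r) ^ k = 1) :
    Commute s ((s * r) ^ k) ∧ Commute r ((s * r) ^ k) ∧ (r * s) ^ k = (s * r) ^ k := by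
  have i : (r * s) ^ k = (s * r) ^ k := by
    rw [← inv_eq_of_mul_eq_one_right e, ← inv_pow, mul_inv_rev, inv_eq_of_mul_eq_one_right rr, inv_eq_of_mul_eq_one_right ss]
  refine ⟨?_, ?_, i⟩
  · have : s * (r * s) ^ k * s⁻¹ = (s * r) ^ k := by rw [← conj_pow]; group
    rw [i] at this
    exact mul_inv_eq_iff_eq_mul.1 this
  · have : r * (s * r) ^ k * r⁻¹ = (r * s) ^ k := by rw [← conj_pow]; group
    rw [i] at this
    exact mul_inv_eq_iff_eq_mul.1 this

theorem cj_comm {a b : G} (u : G) (e : Commute a b) : Commute (u * a * u⁻¹) (u * b * u⁻¹) := by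
  rw [Commute, SemiconjBy, conj_mul, conj_mul, e.eq]

theorem cj3 {x y : G} (y3 : y ^ 3 = 1) (e : x * y * x⁻¹ = y⁻¹) : y⁻¹ * x * y⁻¹⁻¹ = y * x := by
  calc _ = y⁻¹ * (x * y * x⁻¹) * x := by group
    _ = y⁻¹ * y⁻¹ * y ^ 3 * x := by rw [e, y3, mul_one]
    _ = _ := by group

theorem inv2 {x y f : G} (a : x * f * x⁻¹ = f⁻¹) (b : y * f * y⁻¹ = f⁻¹) : Commute (x * y) f := by
  have : x * y * f * (x * y)⁻¹ = f := by
    calc _ = x * (y * f * y⁻¹) * x⁻¹ := by group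
      _ = _ := by rw [b, ← conj_inv, a, inv_inv]
  exact mul_inv_eq_iff_eq_mul.1 this

theorem cm_cancel {x y u : G} (a : Commute x (y * u)) (b : Commute x u) : Commute x y := by
  simpa using a.mul_right b.inv_right

/-- the abstract dihedral argument -/
theorem comm_f [Finite G] {z a b f f' φ : G} {F : Set G} {C : Subgroup G} (zz : z * z = 1) (f3 : f ^ 3 = 1) (f3' : f' ^ 3 = 1)
    (ta : IsConj z a) (tφ : IsConj z (a * φ)) (hφ : φ ∈ F) (nF : ∀ x ∈ F, ¬ IsConj z x ∧ ¬ IsConj z (z * x)) (z1 : z ≠ 1)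
    (zf : Commute z f) (af : a * f * a⁻¹ = f⁻¹) (bf : b * f * b⁻¹ = f⁻¹) (za : Commute z a) (zb : Commute z b)
    (zf' : z * f' * z⁻¹ = f'⁻¹) (af' : a * f' * a⁻¹ = f'⁻¹) (bf' : Commute b f')
    (fC : f ∈ C) (fC' : f' ∈ C) (zC : z ∈ C) (aC : a ∈ C) (FC : ∀ x ∈ F, ∀ y ∈ C, Commute x y)
    (ce : ∀ w ∈ C, IsConj z w → Commute w a → ∃ x ∈ [1, z, b, a], w = x ∨ ∃ y ∈ F, w = x * y) : Commute f f' := by
  have aa : a * a = 1 := by
    obtain ⟨c, rfl⟩ := isConj_iff.1 ta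
    rw [conj_mul, zz, mul_one, mul_inv_cancel]
  obtain ⟨s, es⟩ : ∃ s, f⁻¹ * a * f⁻¹⁻¹ = s := ⟨_, rfl⟩
  obtain ⟨r, er⟩ : ∃ r, f'⁻¹ * z * f'⁻¹⁻¹ = r := ⟨_, rfl⟩
  have ss : s * s = 1 := by rw [← es, conj_mul, aa]; group
  have rr : r * r = 1 := by rw [← er, conj_mul, zz]; group
  have sC : s ∈ C := es ▸ mul_mem (mul_mem (inv_mem fC) aC) (inv_mem (inv_mem fC))
  have rC : r ∈ C := er ▸ mul_mem (mul_mem (inv_mem fC') zC) (inv_mem (inv_mem fC'))
  have ts : IsConj z s := ta.trans (isConj_iff.2 ⟨_, es⟩)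
  have tr : IsConj z r := isConj_iff.2 ⟨_, er⟩
  have cF : ∀ x ∈ F, ∀ c ∈ C, ∀ y, IsConj (y * x) (c * y * c⁻¹ * x) := fun x hx c hc y => isConj_iff.2 ⟨c, by
    rw [mul_assoc c, mul_assoc y, (FC x hx _ (inv_mem hc)).eq]; group⟩
  have nr : ∀ x ∈ F, ¬ IsConj z (r * x) := fun x hx c => (nF x hx).2 (c.trans (er ▸ cF x hx _ (inv_mem fC') z).symm)
  rcases dihed ss rr with ⟨k, e⟩ | ⟨k, n1, e⟩
  · exact (nr φ hφ ((tφ.trans (es ▸ cF φ hφ _ (inv_mem fC) a)).trans
      (e ▸ cF φ hφ _ (pow_mem (mul_mem sC rC) k) s))).elim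
  obtain ⟨c1, c2, c3⟩ := dih_cen ss rr e
  have t1 := (dih ss rr k).elim ts.trans tr.trans
  have t2 := (dih rr ss k).elim tr.trans ts.trans
  rw [c3] at t2
  have yC := pow_mem (mul_mem sC rC) k
  generalize (s * r) ^ k = y at *
  have z3 : r = f' * z := er ▸ cj3 f3' zf'
  obtain ⟨x, hx, k⟩ := ce (f * (s * y) * f⁻¹) (mul_mem (mul_mem fC (mul_mem sC yC)) (inv_mem fC))
    (t1.trans (isConj_iff.2 ⟨f, rfl⟩)) (by
      have := cj_comm f ((Commute.refl s).mul_left c1.symm)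
      rwa [show f * s * f⁻¹ = a by rw [← es]; group] at this)
  obtain ⟨v, vC, v1, k⟩ : ∃ v, (∀ y ∈ C, Commute v y) ∧ (v = 1 ∨ v ∈ F) ∧ f * (s * y) * f⁻¹ = x * v :=
    k.elim (fun k => ⟨1, fun _ _ => Commute.one_left _, .inl rfl, by rw [mul_one, k]⟩) fun ⟨v, hv, k⟩ =>
      ⟨v, FC v hv, .inr hv, k⟩
  replace k : y = f⁻¹ * (a * x) * f * v := by
    calc y = s * s * y := by rw [ss, one_mul]
      _ = s * f⁻¹ * (f * (s * y) * f⁻¹) * f := by group
      _ = _ := by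
        rw [k, mul_assoc, mul_assoc x, (vC f fC).eq, ← es]; group
  have cy : Commute r (f⁻¹ * (a * x) * f) := by
    have := c2.mul_right (vC r rC).symm.inv_right
    rwa [k, mul_inv_cancel_right] at this
  simp only [List.mem_cons, List.not_mem_nil, or_false] at hx
  rcases hx with l | l | l | l <;> rw [l] at cy k
  · have : s * y = v := by rw [k, ← es, ← mul_assoc, mul_one, inv_inv, ← inv_inv f, inv_inv f⁻¹, conj_mul, aa]; group
    rw [this] at t1
    exact (v1.elim (fun l => z1 (isConj_one_left.1 (l ▸ t1))) fun l => (nF v l).1 t1).elim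
  · rw [z3, mul_assoc, mul_assoc a, zf.eq, ← mul_assoc, ← mul_assoc, ← inv_inv f, inv_inv f⁻¹, cj3 f3 af, mul_assoc] at cy
    exact cm_cancel (cm_cancel cy ((inv2 af' zf').symm.mul_left (za.mul_right (.refl z)))).symm zf.symm
  · rw [z3, mul_assoc, (inv2 af bf).eq, inv_mul_cancel_left] at cy
    rw [mul_inv_eq_iff_eq_mul.2 (cm_cancel (cm_cancel cy (bf'.symm.mul_left zb)).symm za.symm).eq] at af'
    rw [pow_succ, sq, mul_eq_one_iff_eq_inv.2 af', one_mul] at f3'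
    exact f3' ▸ Commute.one_right f
  · rw [aa, mul_one, inv_mul_cancel, one_mul] at k
    exact (v1.elim (fun l => n1 (k.trans l)) fun l => nr v l (k ▸ t2)).elim

/-- words in the six outer letters -/
def OutW (w : List ℕ) : Prop := ∀ x ∈ w, ∃ j < 6, x = 2 * (j + 9) + 1

instance (w : List ℕ) : Decidable (OutW w) := by unfold OutW; infer_instance

theorem Dl.dw {g : ℕ → G} {δ : G} (d : Dl g δ) {w : List ℕ} (hw : OutW w) :
    δ * ev g w = ev g w * if w.length % 2 = 0 then δ else δ⁻¹ := by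
  rw [← inv_mul_eq_iff_eq_mul, ← mul_assoc]
  induction w with
  | nil => simp
  | cons x w ih =>
    obtain ⟨j, hj, rfl⟩ := hw x (by simp)
    have e : (g (j + 9))⁻¹ * δ * g (j + 9) = δ⁻¹ := by
      rw [← inv_inj, inv_inv, mul_inv_rev, mul_inv_rev, ← d.inv j hj]; group
    rw [ev_cons, evL_odd, show (g (j + 9) * ev g w)⁻¹ * δ * (g (j + 9) * ev g w) =
      (ev g w)⁻¹ * ((g (j + 9))⁻¹ * δ * g (j + 9)) * ev g w by group, e,
      show (ev g w)⁻¹ * δ⁻¹ * ev g w = ((ev g w)⁻¹ * δ * ev g w)⁻¹ by group, ih fun y hy => hw y (by simp [hy]), List.length_cons]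
    split_ifs <;> first | omega | simp

variable [Finite G] {K S : Subgroup G} {g : ℕ → G} {δ : G}

local notation "z" => g 8
local notation "E" => el g (g 8)
local notation "Q" => QQ g
local notation "π" => cod g
local notation "H" => 𝐂₁(g 8)

namespace Cx
variable (h : Cx K g S) (d : Dl g δ)
include h d

theorem kd (c : ℕ) {w : List ℕ} (hw : OutW w) :
    δ * ev g (qw c ++ w) = ev g (qw (apq AD c) ++ w) * if w.length % 2 = 0 then δ else δ⁻¹ := by
  rw [ev_append, ev_append, ev_qw, ev_qw, mul_assoc, ← d.dw hw, ← h.fr.conj_el h.fq d.mem d.act]; group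

theorem fc {k w : List ℕ} {c : ℕ} (e : OutW w ∧ w.length % 2 = 0 ∧ bv k = bv (qw c ++ w) ∧
    bv ([23, 29] ++ (qw (apq AD c) ++ w)) = bv (k ++ [23, 29])) : Commute (ev g k) (ev g [23, 29] * δ) := by
  have a := h.same e.2.2.2
  rw [ev_append, ev_append g k] at a
  rw [Commute, SemiconjBy, ← mul_assoc, ← a, h.same e.2.2.1, mul_assoc _ δ, h.kd d c e.1, if_pos e.2.1, mul_assoc]

theorem yδ : δ * ev g [23, 29] = ev g [23, 29] * δ := d.dw (by decide)

theorem fi {k w : List ℕ} {c : ℕ} (e : OutW w ∧ w.length % 2 = 1 ∧ bv k = bv (qw c ++ w) ∧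
    bv ([23, 29] ++ (qw (apq AD c) ++ w) ++ [23, 29]) = bv k) :
    ev g k * (ev g [23, 29] * δ) * (ev g k)⁻¹ = (ev g [23, 29] * δ)⁻¹ := by
  have a := h.same e.2.2.2
  have b := h.kd d c e.1
  rw [ev_append, ev_append] at a
  rw [← h.same e.2.2.1, if_neg (by omega)] at b
  rw [mul_inv_eq_iff_eq_mul, eq_inv_mul_iff_mul_eq]
  calc _ = ev g [23, 29] * (δ * ev g k) * (ev g [23, 29] * δ) := by group
    _ = _ := by rw [b, ← h.yδ d, mul_assoc, mul_assoc, inv_mul_cancel_left, ← mul_assoc, a]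

theorem cm : Commute (ev g [23, 29] * δ) (ev g uw * (ev g [23, 29] * δ) * (ev g uw)⁻¹) := by
  have g11 : ev g [23] = g 11 := ev_single g 11
  have f3 : (ev g [23, 29] * δ) ^ 3 = 1 := by
    rw [(show Commute _ _ from (h.yδ d).symm).mul_pow, d.d3, mul_one, ← ev_wpow]
    exact h.same (w := []) (by decide +kernel)
  have c' : ∀ {k k'}, bv k = bv (cjw uw k') → Commute (ev g k') (ev g [23, 29] * δ) →
      Commute (ev g k) (ev g uw * (ev g [23, 29] * δ) * (ev g uw)⁻¹) := fun e c => by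
    rw [h.same e, ev_cjw]; exact cj_comm _ c
  have i' : ∀ {k k' f}, bv k = bv (cjw uw k') → ev g k' * f * (ev g k')⁻¹ = f⁻¹ →
      ev g k * (ev g uw * f * (ev g uw)⁻¹) * (ev g k)⁻¹ = (ev g uw * f * (ev g uw)⁻¹)⁻¹ := fun e c => by
    rw [h.same e, ev_cjw, conj_inv, conj_inv, conj_mul, conj_mul, c]
  have oc : ∀ {u w}, bv (u ++ w) = bv (w ++ u) → Commute (ev g u) (ev g w) := fun e => by
    rw [Commute, SemiconjBy, ← ev_append, ← ev_append, h.same e]
  have zf := h.fc d (k := [17]) (c := 256) (w := []) (by decide +kernel)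
  have af := h.fi d (k := [23]) (c := 0) (w := [23]) (by decide +kernel)
  have bf := h.fi d (k := cjw uw [17]) (c := 268) (w := [23]) (by decide +kernel)
  have ef := h.fc d (k := ew) (c := 0) (w := ew) (by decide +kernel)
  have φf : ∀ c ∈ [12, 308, 312], Commute (ev g (qw c)) (ev g [23, 29] * δ) := fun c hc =>
    h.fc d (c := c) (w := []) (by revert c; decide +kernel)
  have mC : ∀ {x}, Commute (ev g ew) x → (∀ c ∈ [12, 308, 312], Commute (ev g (qw c)) x) →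
      x ∈ centralizer ({ev g ew} ∪ {x | ∃ c ∈ [12, 308, 312], x = ev g (qw c)}) := fun a b y hy => by
    rcases hy with rfl | ⟨c, hc, rfl⟩
    exacts [a, b c hc]
  refine comm_f (a := ev g [23]) (b := ev g (cjw uw [17])) (φ := ev g (qw 308))
    (F := {x | ∃ c ∈ [12, 308, 312], x = ev g (qw c)}) (by rw [ev_z, h.zz]) f3 (by rw [conj_pow, f3]; group)
    (isConj_iff.2 ⟨_, by rw [← ev_cjw]; exact h.same (u := cjw (winv pw) [17]) (by decide +kernel)⟩)
    (isConj_iff.2 ⟨_, by rw [← ev_cjw, ← ev_append]; exact h.same (u := cjw [25, 31, 27, 25, 1, 31] [17]) (by decide +kernel)⟩)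
    ⟨308, by simp, rfl⟩ ?_ (by rw [ev_z]; exact h.z_ne) zf af bf (oc (by decide +kernel)) (oc (by decide +kernel))
    (i' (by decide +kernel) bf) (i' (by decide +kernel) af) (c' rfl zf) (mC ef φf) (mC (c' (by decide +kernel) ef) fun c hc => ?_)
    (mC (oc (by decide +kernel)) fun c hc => oc (by revert c; decide +kernel))
    (mC (oc (by decide +kernel)) fun c hc => oc (by revert c; decide +kernel)) (fun x hx y hy => hy x (.inr hx)) fun w hw c a => ?_
  · rintro _ ⟨c, hc, rfl⟩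
    rw [ev_z, ev_qw]
    have k : ∃ r ∈ [6, 10, 12], ∃ γ, vm 8 r (ν γ) = c % 256 ∧ r < 256 ∧ c % 256 ≠ 0 := by revert c; decide +kernel
    refine ⟨h.not18 (el_mem c) (by rwa [h.π_el]), h.not18 (mul_mem h.ex.mem (el_mem c)) ?_⟩
    rwa [h.co.mul _ h.ex.mem _ (el_mem c), (h.co.ker _ h.ex.mem).2 (mem_zpowers _), Nat.zero_xor, h.π_el]
  · obtain ⟨b, hc', e⟩ := (by decide +kernel : ∀ c ∈ [12, 308, 312], ∃ c' ∈ [12, 308, 312], bv (qw c) = bv (cjw uw (qw c'))) c hc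
    exact c' e (φf _ hc')
  · rw [ev_z] at c
    rw [g11] at a
    obtain ⟨x, hx, b, hb, e⟩ := h.ce d c a (Commute.symm (hw _ (.inl rfl))) fun b hb => Commute.symm (by
      rw [← ev_qw]; exact hw _ (.inr ⟨b, by revert b; decide, rfl⟩))
    refine ⟨x, by rwa [ev_cjw, ev_z, g11], ?_⟩
    rcases List.mem_cons.1 hb with rfl | hb
    · exact .inl (by rw [e, el_zero, mul_one])
    · exact .inr ⟨_, ⟨b, hb, rfl⟩, by rw [e, ev_qw]⟩

end Cx

end CF.P83
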