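import Cfsg.Agent.P83.S9
import Cfsg.Agent.P83.Emb

/-! The subgroup that is normalised by the centraliser of the root involution. -/

set_option autoImplicit false
set_option maxRecDepth 1000000
set_option synthInstance.maxSize 20000
set_option linter.unusedSectionVars false

namespace CF.P83
open Cfsg Subgroup CF.Loc CF.Even CF.LX CF.J4 CF.Comp CF.Dce CF.LX4 CF.MonU Equiv Equiv.Perm
open CF.ThR (q8 b8 el qm apq el_pow el_shl el_zero conj_chi norm_c1 q8_lt b8_lt)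

variable {G : Type*} [Group G]

/-- the generators -/
noncomputable def bf (g : ℕ → G) (δ : G) (i : ℕ) : G := if i = 8 then δ else ev g (nth [] BW i)

theorem ev_bf (g : ℕ → G) (δ : G) {w : List ℕ} (hw : ∀ x ∈ w, x ≤ 2 * 8) : ev (bf g δ) w = ev g (subst BW w) :=
  (ev_congr (g := evs g BW) (fun i hi => if_neg (by omega)) hw).trans (ev_evs BW w)

theorem bf17 (g : ℕ → G) (δ : G) : evL (bf g δ) 17 = δ := (evL_odd _ 8).trans (if_pos rfl)

theorem bf18 (g : ℕ → G) (δ : G) : evL (bf g δ) 18 = δ⁻¹ := (evL_even _ 8).trans (congrArg _ (if_pos rfl))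

variable [Finite G] {K S : Subgroup G} {g : ℕ → G} {δ : G}

local notation "z" => g 8
local notation "H" => 𝐂₁(g 8)

namespace Cx
variable (h : Cx K g S)
include h

theorem rels (d : Dl g δ) : ∀ r ∈ RP, ev (bf g δ) r = 1 := fun r hr => by
  rw [RP, ← List.append_assoc, List.mem_append, List.mem_cons, List.mem_append (s := TT.map trel), List.mem_map, List.mem_singleton] at hr
  rcases hr with hr | rfl | ⟨⟨k, l, k', c, w⟩, ht, rfl⟩ | rfl
  · obtain ⟨a, b⟩ := (by decide +kernel : ∀ r ∈ Om.RO ++ RK, (∀ x ∈ r, x ≤ 2 * 8) ∧ bv (subst BW r) = bv []) r hr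
    rw [ev_bf g δ a, h.same b, ev_nil]
  · simp only [ev_cons, bf17, ev_nil, mul_one, ← pow_three, d.d3]
  · obtain ⟨a, a', o, e, b, b'⟩ := (by decide +kernel : ∀ t ∈ TT, (∀ x ∈ t.1, x ≤ 2 * 8) ∧ (∀ x ∈ t.2.2.1, x ≤ 2 * 8) ∧
      OutW (subst BW t.2.2.2.2) ∧ (t.2.1 = if (subst BW t.2.2.2.2).length % 2 = 0 then 18 else 17) ∧
      bv (subst BW t.1) = bv (qw t.2.2.2.1 ++ subst BW t.2.2.2.2) ∧
      bv (qw (apq AD t.2.2.2.1) ++ subst BW t.2.2.2.2 ++ subst BW t.2.2.1) = bv []) _ ht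
    replace b' := h.same b'
    dsimp only at a a' o e b b'
    rw [ev_append, ev_nil] at b'
    rw [trel, List.cons_append, ev_cons, ev_append, ev_cons, bf17, ev_bf g δ a, ev_bf g δ a', h.same b, ← mul_assoc, h.kd d c o,
      ← b', e]
    split_ifs
    · rw [bf18]; group
    · rw [bf17]; group
  · have e := (h.cm d).eq
    have u1 : ev (bf g δ) [5, 7, 3, 11, 7, 5] = ev g uw := (ev_bf g δ (by decide)).trans (h.same (by decide +kernel))
    have u2 : ev (bf g δ) [5, 7, 11, 3, 7, 5] = (ev g uw)⁻¹ := (ev_bf g δ (by decide)).trans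
      ((h.same (by decide +kernel)).trans (ev_winv g uw))
    have y1 : ev (bf g δ) [13, 15] = ev g [23, 29] := ev_bf g δ (by decide)
    have y2 : ev (bf g δ) [15, 13] = (ev g [23, 29])⁻¹ := (ev_bf g δ (by decide)).trans
      ((h.same (by decide +kernel)).trans (ev_winv g [23, 29]))
    rw [show CM = [13, 15] ++ 17 :: ([5, 7, 3, 11, 7, 5] ++ ([13, 15] ++ 17 :: ([5, 7, 11, 3, 7, 5] ++ 18 :: ([15, 13] ++
      ([5, 7, 3, 11, 7, 5] ++ 18 :: ([15, 13] ++ [5, 7, 11, 3, 7, 5])))))) from rfl]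
    simp only [ev_append, ev_cons _ 17, ev_cons _ 18, bf17, bf18, u1, u2, y1, y2]
    rw [← mul_inv_eq_one] at e
    rw [← e]; group

theorem clo_eq : clo (bf g δ) (gensW 9) = K ⊔ zpowers δ := by
  have m : ∀ i < 9, bf g δ i ∈ clo (bf g δ) (gensW 9) := fun i hi => ev_single (bf g δ) i ▸ ev_mem_clo _ (mem_gensW hi)
  refine le_antisymm ((clo_le_closure _ _).trans ((closure_le _).2 ?_)) (sup_le (h.gen _ fun i hi => ?_) (zpowers_le.2 (m 8 (by omega))))
  · rintro _ ⟨i, rfl⟩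
    unfold bf
    split_ifs
    exacts [mem_sup_right (mem_zpowers δ), mem_sup_left (ev_mem h.mem _)]
  · obtain ⟨a, b⟩ := (by decide +kernel : ∀ i < 16, (∀ x ∈ nth [] XW i, x ≤ 2 * 8) ∧
      bv [2 * i + 1] = bv (subst BW (nth [] XW i))) i hi
    rw [← ev_single g i, h.same b, ← ev_bf g δ a]
    exact ev_le (m := 8) (fun i hi => m i (by omega)) a

theorem exL : ∃ L : Subgroup G, K ≤ L ∧ (L = K ∨ Nonempty (L ≃* M3)) ∧ H ≤ 𝐍(L) ∧
    ∀ w ∈ S, IsConj z w → ∃ y ∈ L, y * z * y⁻¹ = w := by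
  by_cases p : ∀ k ∈ H, pu (cod g (k⁻¹ * g 4 * k)) = true
  · exact ⟨K, le_rfl, .inl rfl, h.norL le_rfl (h.caseA p) fun _ k _ => k, fun _ => h.fus le_rfl (h.caseA p)⟩
  obtain ⟨k, hk, np⟩ := not_forall₂.1 p
  obtain ⟨δ, d⟩ := h.caseB hk np
  have t : ∀ k ∈ H, ∃ y ∈ (K ⊔ zpowers δ) ⊓ H, y⁻¹ * g 4 * y = k⁻¹ * g 4 * k := fun k hk =>
    let ⟨y, hy, e⟩ := h.tr d hk
    ⟨y, ⟨(sup_le_sup_right inf_le_left _ : K ⊓ H ⊔ zpowers δ ≤ _) hy, h.C1H d hy⟩, e⟩
  refine ⟨K ⊔ zpowers δ, le_sup_left, .inr (h.clo_eq ▸ exists_emb3 (h.rels d) fun e => ?_),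
    h.norL le_sup_left t fun M KM nM => sup_le KM (zpowers_le.2 ?_), fun _ => h.fus le_sup_left t⟩
  · exact absurd ((h.orc [19] []).1 e) (by decide +kernel)
  · have m := M.mul_mem (norm_mem' (nM d.mem) (KM (h.mem 9))) (M.inv_mem (KM (h.mem 9)))
    have e := d.inv 0 (by omega)
    rw [show δ = (δ * (g (0 + 9) * δ * (g (0 + 9))⁻¹)⁻¹)⁻¹ by rw [e, inv_inv, ← mul_one (δ * δ)⁻¹, ← d.d3]; group]
    exact M.inv_mem (by simpa only [mul_inv_rev, inv_inv, mul_assoc] using m)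

end Cx

end CF.P83
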