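import Cfsg.Agent.P83.T

/-! The local data for the theorem of Holt. -/

set_option autoImplicit false
set_option linter.unusedSectionVars false

namespace CF.P83
open Cfsg Subgroup CF.Loc CF.Even CF.LX CF.J4 CF.Comp CF.Dce CF.LX4 CF.MonU

theorem data {G : Type*} [Group G] [Finite G] {K : Subgroup G} (e : K ≃* Om.M8) (cK : 𝐂(K) ≤ K)
    (hG : IsOfParabolicCharacteristic 2 G) (hi : ¬ 2 ∣ (𝐍(K)).index) :
    ∃ (L : Subgroup G) (z : G) (S : Sylow 2 ↥𝐍(L)), K ≤ L ∧ (L = K ∨ Nonempty (L ≃* M3)) ∧ z ∈ K ∧ orderOf z = 2 ∧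
      𝐂₁(z) ≤ 𝐍(L) ∧ z ∈ 𝐂((S : Subgroup ↥𝐍(L)).map (𝐍(L)).subtype) ∧
      (∀ g, g * z * g⁻¹ ∈ 𝐍(L) → ∃ x ∈ 𝐍(L), x * z * x⁻¹ = g * z * g⁻¹) ∧
      ∀ O : Subgroup G, Odd (Nat.card O) → O.Normal → O = ⊥ := by
  obtain ⟨g, h⟩ := exists_md e
  obtain ⟨S, h⟩ := h.exists_cx cK hG hi
  obtain ⟨L, KL, i, nL, f⟩ := h.exL
  have s := h.syl.mono (h.Sz.trans nL) le_top
  refine ⟨L, g 8, s.toSylow, KL, i, h.mem 8, h.ord, nL, ?_, fun a ha => ?_, fun O o n => ?_⟩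
  · rw [s.map_toSylow]
    exact fun x hx => mem_c1.1 (h.Sz hx)
  · obtain ⟨c, hc, l⟩ := s.exists_cj_le (two_zp (x := a * g 8 * a⁻¹) (by rw [conj_mul, h.zz]; group)) (zpowers_le.2 ha)
    obtain ⟨y, hy, e⟩ := f _ (l (conj_mem_cj c (mem_zpowers _))) (isConj_iff.2 ⟨c * a, by group⟩)
    refine ⟨c⁻¹ * y, mul_mem (inv_mem hc) (le_normalizer hy), ?_⟩
    calc _ = c⁻¹ * (y * g 8 * y⁻¹) * c := by group
      _ = _ := by rw [e]; group
  · refine (h.lq.pair h.c8 (g := g 15) (fun e => ?_) (h.nt ▸ g_mem (by omega))).large.2.2.2 O o (by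
      rw [normalizer_eq_top_iff.2 n]; exact le_top)
    exact absurd ((h.orc [9] [17]).1 ((ev_single g 4).trans ((h.nt.symm.trans e).trans (ev_z g).symm))) (by decide +kernel)

end CF.P83
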